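import Mathlib
import Cfsg.Agent.R2.H9.E6.Setup
import Cfsg.Agent.H163.E6.Bgrp

/-!
# S5749, S5750: consequences of `Setup` (helper9)

* `Setup.norm`, `Setup.min` : the image of `A` is normal in `M` and contained in every normal subgroup of `M` which is not
  contained in the centre;
* `SG Γ ρ W` : the stabilizer of a subspace in `Γ`; `Setup.SG_eq` : it is `M` for proper non-zero `M`-stable `W`;
* `Setup.card_le` : counting conjugates;
* `Setup.no_six` : no totally singular 6-dimensional subspace stable under `A`;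
* `Setup.no_three` : no totally singular 3-dimensional subspace stable under `A`, if `A` has no 2-dimensional
  representations.
-/

set_option autoImplicit false

namespace Cfsg.Agent.R2.H9.E6

open Cfsg Cfsg.Lie Module
open Cfsg.Agent.ChevalleyStructure.E6Min.Basic Cfsg.Agent.ChevalleyStructure.E6Min.Adjoint
open Cfsg.Agent.H163.E6

universe u v w

variable {F : Type u} [Field F] {Γ M : Subgroup ↥(Zgrp F)} {A : Type v} [Group A] {ψ : A →* ↥(Zgrp F)}

theorem Setup.mem_M (h : Setup Γ M ψ) (a : A) : ψ a ∈ M := h.le ⟨a, rfl⟩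

theorem Setup.mem_Γ (h : Setup Γ M ψ) (a : A) : ψ a ∈ Γ := h.hle (h.mem_M a)

theorem Setup.norm (h : Setup Γ M ψ) {g : ↥(Zgrp F)} (hg : g ∈ M) (a : A) : ∃ b, ψ b = g * ψ a * g⁻¹ := by
  obtain ⟨ι, hι, -⟩ := h.act
  exact ⟨ι ⟨g, hg⟩ a, hι ⟨g, hg⟩ a⟩

theorem Setup.norm' (h : Setup Γ M ψ) {g : ↥(Zgrp F)} (hg : g ∈ M) (a : A) : ∃ b, ψ b = g⁻¹ * ψ a * g := by
  obtain ⟨b, hb⟩ := h.norm (inv_mem hg) a
  exact ⟨b, by rw [hb, inv_inv]⟩

/-- elements of `M` centralizing `A` are scalars -/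
theorem Setup.centM (h : Setup Γ M ψ) {g : ↥(Zgrp F)} (hg : g ∈ M) (hc : ∀ a, ψ a * g = g * ψ a) : ad F g = 1 :=
  h.cent g (h.hle hg) hc

/-- the image of `A` is contained in the non-central normal subgroups of `M` -/
theorem Setup.min [IsSimpleGroup A] (h : Setup Γ M ψ) {B : Subgroup ↥(Zgrp F)} (hB : B ≤ M)
    (hn : ∀ g ∈ M, ∀ b ∈ B, g * b * g⁻¹ ∈ B) (h1 : ∃ b ∈ B, ad F b ≠ 1) : ψ.range ≤ B := by
  have hN : (B.comap ψ).Normal := ⟨fun a ha g => by
    rw [Subgroup.mem_comap, map_mul, map_mul, map_inv]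
    exact hn _ (h.mem_M g) _ ha⟩
  rcases hN.eq_bot_or_eq_top with h2 | h2
  · exfalso
    obtain ⟨b, hb, hb1⟩ := h1
    apply hb1
    refine h.centM (hB hb) fun a => ?_
    -- the commutator belongs to `A ∩ B = 1`
    obtain ⟨a', ha'⟩ := h.norm (hB hb) a
    have h3 : ψ (a' * a⁻¹) ∈ B := by
      rw [map_mul, map_inv, ha']
      have h4 := hn _ (h.mem_M a) _ (inv_mem hb)
      have h5 := mul_mem hb h4
      rwa [show b * (ψ a * b⁻¹ * (ψ a)⁻¹) = b * ψ a * b⁻¹ * (ψ a)⁻¹ by group] at h5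
    have h4 : a' * a⁻¹ ∈ B.comap ψ := h3
    rw [h2, Subgroup.mem_bot, mul_inv_eq_one] at h4
    rw [h4] at ha'
    calc ψ a * b = b * ψ a * b⁻¹ * b := by rw [← ha']
      _ = b * ψ a := by group
  · rintro _ ⟨a, rfl⟩
    have h3 : a ∈ B.comap ψ := by rw [h2]; trivial
    exact h3

/-! ### stabilizers of subspaces -/

/-- the stabilizer in `Γ` of a subspace -/
def SG (Γ : Subgroup ↥(Zgrp F)) (ρ : Representation F ↥(Zgrp F) (I27 → F)) (W : Submodule F (I27 → F)) :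
    Subgroup ↥(Zgrp F) := Γ ⊓ Cnt.St ρ W

theorem mem_SG {ρ : Representation F ↥(Zgrp F) (I27 → F)} {W : Submodule F (I27 → F)} {g : ↥(Zgrp F)} :
    g ∈ SG Γ ρ W ↔ g ∈ Γ ∧ ∀ w, ρ g w ∈ W ↔ w ∈ W := Iff.rfl

/-- the stabilizer in `Γ` of a proper non-zero `M`-stable subspace is `M` -/
theorem Setup.SG_eq (h : Setup Γ M ψ) {ρ : Representation F ↥(Zgrp F) (I27 → F)} (hρ : ρ = V F ∨ ρ = V' F)
    {W : Submodule F (I27 → F)} (hW : ∀ g ∈ M, ∀ w ∈ W, ρ g w ∈ W) (h0 : W ≠ ⊥) (h1 : W ≠ ⊤) : SG Γ ρ W = M := by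
  have h2 : M ≤ SG Γ ρ W := by
    intro g hg
    refine mem_SG.2 ⟨h.hle hg, fun w => ⟨fun hw => ?_, hW g hg w⟩⟩
    have h3 := hW g⁻¹ (inv_mem hg) _ hw
    rwa [← rho_mul, inv_mul_cancel, map_one] at h3
  rcases h.max _ h2 inf_le_left with h3 | h3
  · exact h3
  · exfalso
    rcases h.irr ρ hρ W (fun g hg w hw => by
      have h4 : g ∈ SG Γ ρ W := by rw [h3]; exact hg
      exact ((mem_SG.1 h4).2 w).2 hw) with h4 | h4
    · exact h0 h4
    · exact h1 h4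

/-- **counting**: `x ∈ X` with stabilizer in `Γ` contained in `M` -/
theorem Setup.card_le [Finite F] (h : Setup Γ M ψ) {X : Type w} [MulAction ↥Γ X] (x : X) (S : Set X) [Finite S]
    (hS : ∀ g : ↥Γ, g • x ∈ S) (hx : ∀ g : ↥Γ, g • x = x → (g : ↥(Zgrp F)) ∈ M) :
    Nat.card ↥Γ ≤ Nat.card ↥M * Nat.card S := by
  have hfin : Finite ↥(Zgrp F) := inferInstance
  rw [← (MulAction.stabilizer ↥Γ x).card_mul_index]
  refine Nat.mul_le_mul ?_ ?_
  · refine Nat.card_le_card_of_injective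
      (fun g : ↥(MulAction.stabilizer ↥Γ x) => (⟨(g : ↥Γ), hx _ (MulAction.mem_stabilizer_iff.1 g.2)⟩ : ↥M)) ?_
    intro a b hab
    have h1 := congrArg (fun z : ↥M => (z : ↥(Zgrp F))) hab
    exact Subtype.ext (Subtype.ext h1)
  · rw [Subgroup.index_eq_card, ← Nat.card_congr (MulAction.orbitEquivQuotientStabilizer ↥Γ x)]
    refine Nat.card_le_card_of_injective (fun y : ↥(MulAction.orbit ↥Γ x) => (⟨(y : X), ?_⟩ : S)) ?_
    · obtain ⟨g, hg⟩ := y.2
      rw [← hg]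
      exact hS g
    · intro a b hab
      have h1 := congrArg (fun z : S => (z : X)) hab
      exact Subtype.ext h1

/-! ### totally singular subspaces -/

theorem Setup.comm_range (h : Setup Γ M ψ) : ⁅ψ.range, ψ.range⁆ = ψ.range := by
  have h1 := h.perf
  rw [commutator_def] at h1
  rw [MonoidHom.range_eq_map, ← Subgroup.map_commutator, h1]

theorem Setup.false_of_root (h : Setup Γ M ψ) {m : (I27 → F) →ₗ[F] (I27 → F)} (h1 : m ≠ 0)
    (h2 : ∀ x, m (m x) = 0) (h3 : ∀ t : F, ∃ z : ↥(Zgrp F), ∀ x, V F z x = x + t • m x)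
    (h4 : ∀ b ∈ ψ.range, ∀ x, V F b (m x) = m (V F b x)) : False := by
  refine h.no_add m h1 h2 fun t => ?_
  obtain ⟨z, hz⟩ := h3 t
  refine ⟨z, hz, fun a => ?_⟩
  apply V_injective
  intro x
  rw [rho_mul, rho_mul, hz, hz, map_add, map_smul, h4 _ ⟨a, rfl⟩]

/-- **no totally singular 6-dimensional subspace is stable under `A`** -/
theorem Setup.no_six (h : Setup Γ M ψ) {ρ : Representation F ↥(Zgrp F) (I27 → F)} (hρ : ρ = V F ∨ ρ = V' F)
    {W : Submodule F (I27 → F)} (hst : ∀ a, ∀ w ∈ W, ρ (ψ a) w ∈ W) (h6 : finrank F ↥W = 6) : ¬ TS W := by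
  intro hW
  obtain ⟨m, h1, h2, h3, h4⟩ := H65.E6Root.six_root ρ hρ (B := ψ.range) h.comm_range h6 hW (by
    rintro _ ⟨a, rfl⟩ w hw
    exact hst a w hw)
  exact h.false_of_root h1 h2 h3 h4

/-- **no totally singular 3-dimensional subspace is stable under `A`** -/
theorem Setup.no_three (h : Setup Γ M ψ) (h2 : ∀ θ : A →* GL (Fin 2) F, ∀ a, θ a = 1)
    {ρ : Representation F ↥(Zgrp F) (I27 → F)} (hρ : ρ = V F ∨ ρ = V' F)
    {W : Submodule F (I27 → F)} (hst : ∀ a, ∀ w ∈ W, ρ (ψ a) w ∈ W) (h3 : finrank F ↥W = 3) : ¬ TS W := by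
  intro hW
  obtain ⟨m, h1, h2, h3, h4⟩ := H65.E6Root.three_root ρ hρ (B := ψ.range) (by
    intro θ b
    obtain ⟨a, ha⟩ := b.2
    have h5 := h2 (θ.comp ψ.rangeRestrict) a
    rw [MonoidHom.comp_apply] at h5
    have h6 : ψ.rangeRestrict a = b := Subtype.ext ha
    rwa [h6] at h5) h3 hW (by
    rintro _ ⟨a, rfl⟩ w hw
    exact hst a w hw)
  exact h.false_of_root h1 h2 h3 h4

end Cfsg.Agent.R2.H9.E6
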