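import Mathlib
import Cfsg.Agent.R2.H9.E6.Cons
import Cfsg.Agent.H944.E6Card

/-!
# S5749, S5750: counting (helper9)

* `card_sub_mul_le` : the number of `k`-dimensional subspaces;
* `Setup.card_le'` : `|Γ / centre| ≤ |Aut A| |S|`;
* `Setup.count_sub` : `|Γ / centre| ∏ (q^k - q^i) ≤ |Aut A| q^(27 k)` if there is an `M`-stable subspace of dimension `k`;
* `Setup.count_white` : `|Γ / centre| (|F| - 1) ≤ |Aut A| 27 |F|^17` if there is an `M`-stable white line.
-/

set_option autoImplicit false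

namespace Cfsg.Agent.R2.H9.E6

open Cfsg Cfsg.Lie Module
open Cfsg.Agent.ChevalleyStructure.E6Min.Basic Cfsg.Agent.ChevalleyStructure.E6Min.Adjoint
open Cfsg.Agent.H163.E6
open Cfsg.Agent.H952.F4 (ev sh cr tf)

universe u v w

/-- the number of `k`-dimensional subspaces -/
theorem card_sub_mul_le {F : Type u} [Field F] [Finite F] {U : Type v} [AddCommGroup U] [Module F U]
    [Module.Finite F U] (k : ℕ) :
    Nat.card {W : Submodule F U // finrank F ↥W = k} * ∏ i : Fin k, (Nat.card F ^ k - Nat.card F ^ i.val) ≤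
      Nat.card F ^ (finrank F U * k) := by
  classical
  have hfinU : Finite U := Module.finite_of_finite F
  have := Fintype.ofFinite F
  have h1 : ∀ W : {W : Submodule F U // finrank F ↥W = k},
      Nat.card {s : Fin k → ↥W.1 // LinearIndependent F s} = ∏ i : Fin k, (Nat.card F ^ k - Nat.card F ^ i.val) := by
    intro W
    have h2 := card_linearIndependent (K := F) (V := ↥W.1) (k := k) (le_of_eq W.2.symm)
    rw [h2, W.2]
    simp only [Nat.card_eq_fintype_card]
  have h2 : Nat.card (Σ W : {W : Submodule F U // finrank F ↥W = k}, {s : Fin k → ↥W.1 // LinearIndependent F s}) =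
      Nat.card {W : Submodule F U // finrank F ↥W = k} * ∏ i : Fin k, (Nat.card F ^ k - Nat.card F ^ i.val) := by
    have := Fintype.ofFinite {W : Submodule F U // finrank F ↥W = k}
    rw [Nat.card_sigma, Finset.sum_congr rfl (fun W _ => h1 W), Finset.sum_const, Finset.card_univ,
      Nat.card_eq_fintype_card (α := {W : Submodule F U // finrank F ↥W = k}), smul_eq_mul]
  rw [← h2]
  have h3 : Nat.card (Fin k → U) = Nat.card F ^ (finrank F U * k) := by
    rw [Nat.card_fun, Nat.card_eq_fintype_card (α := Fin k), Fintype.card_fin, Module.natCard_eq_pow_finrank (K := F),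
      ← pow_mul]
  rw [← h3]
  refine Nat.card_le_card_of_injective (fun x => fun i => ((x.2.1 i : ↥x.1.1) : U)) ?_
  have hspan : ∀ x : (Σ W : {W : Submodule F U // finrank F ↥W = k}, {s : Fin k → ↥W.1 // LinearIndependent F s}),
      Submodule.span F (Set.range fun i => ((x.2.1 i : ↥x.1.1) : U)) = x.1.1 := by
    rintro ⟨W, s⟩
    have h4 : Submodule.span F (Set.range s.1) = ⊤ :=
      s.2.span_eq_top_of_card_eq_finrank' (by rw [Fintype.card_fin, W.2])
    have h5 : (Set.range fun i => ((s.1 i : ↥W.1) : U)) = W.1.subtype '' Set.range s.1 := by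
      rw [← Set.range_comp]; rfl
    rw [h5, ← Submodule.map_span, h4, Submodule.map_top, Submodule.range_subtype]
  intro x y hxy
  have h4 : x.1.1 = y.1.1 := by rw [← hspan x, ← hspan y]; exact congrArg _ (congrArg _ hxy)
  obtain ⟨⟨W, hW⟩, s, hs⟩ := x
  obtain ⟨⟨W', hW'⟩, s', hs'⟩ := y
  have h5 : W = W' := h4
  subst h5
  congr 1
  apply Subtype.ext
  funext i
  exact Subtype.ext (congrFun hxy i)

variable {F : Type u} [Field F] {Γ M : Subgroup ↥(Zgrp F)} {A : Type v} [Group A] {ψ : A →* ↥(Zgrp F)}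

/-- counting modulo the centre -/
theorem Setup.card_le' [Finite F] [Finite A] (h : Setup Γ M ψ) {X : Type w} [MulAction ↥Γ X] (x : X) (S : Set X)
    [Finite S] (hS : ∀ g : ↥Γ, g • x ∈ S) (hx : ∀ g : ↥Γ, g • x = x → (g : ↥(Zgrp F)) ∈ M) :
    Nat.card ↥(Γ.map (ad F)) ≤ Nat.card (MulAut A) * Nat.card S := by
  have hfin : Finite ↥(Zgrp F) := inferInstance
  have hfA : Finite (MulAut A) := Finite.of_injective (fun σ => (σ : A → A)) DFunLike.coe_injective
  have h1 := h.card_le x S hS hx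
  -- the centre
  let a1 : ↥Γ →* ↥(chevE6.group F) := (ad F).comp Γ.subtype
  have hr : a1.range = Γ.map (ad F) := by
    rw [MonoidHom.range_comp, Subgroup.range_subtype]
  have h2 : Nat.card ↥Γ = Nat.card ↥(Γ.map (ad F)) * Nat.card a1.ker := by
    rw [← hr, ← Nat.card_congr (QuotientGroup.quotientKerEquivRange a1).toEquiv]
    exact Subgroup.card_eq_card_quotient_mul_card_subgroup _
  obtain ⟨ι, -, hι, -⟩ := h.act
  have h3 : Nat.card ↥M ≤ Nat.card (MulAut A) * Nat.card a1.ker := by
    have h4 : Nat.card ↥M = Nat.card ι.range * Nat.card ι.ker := by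
      rw [← Nat.card_congr (QuotientGroup.quotientKerEquivRange ι).toEquiv]
      exact Subgroup.card_eq_card_quotient_mul_card_subgroup _
    rw [h4]
    refine Nat.mul_le_mul ?_ ?_
    · exact Nat.card_le_card_of_injective _ Subtype.val_injective
    · refine Nat.card_le_card_of_injective (fun z : ι.ker => (⟨⟨z.1.1, h.hle z.1.2⟩, (hι z.1).1 z.2⟩ : a1.ker)) ?_
      intro z z' hz
      have h5 := congrArg (fun t : a1.ker => ((t : ↥Γ) : ↥(Zgrp F))) hz
      exact Subtype.ext (Subtype.ext h5)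
  have hpos : 0 < Nat.card a1.ker := Nat.card_pos
  refine Nat.le_of_mul_le_mul_right ?_ hpos
  calc Nat.card ↥(Γ.map (ad F)) * Nat.card a1.ker = Nat.card ↥Γ := h2.symm
    _ ≤ Nat.card ↥M * Nat.card S := h1
    _ ≤ Nat.card (MulAut A) * Nat.card a1.ker * Nat.card S := Nat.mul_le_mul_right _ h3
    _ = Nat.card (MulAut A) * Nat.card S * Nat.card a1.ker := by ring

/-- the action on subspaces -/
@[reducible] def subAct (Γ : Subgroup ↥(Zgrp F)) (ρ : Representation F ↥(Zgrp F) (I27 → F)) :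
    MulAction ↥Γ (Submodule F (I27 → F)) where
  smul g W := W.map (ρ g)
  one_smul W := by
    show W.map (ρ ((1 : ↥Γ) : ↥(Zgrp F))) = W
    rw [Subgroup.coe_one, map_one]
    exact Submodule.map_id W
  mul_smul g g' W := by
    show W.map (ρ ((g * g' : ↥Γ) : ↥(Zgrp F))) = (W.map (ρ g')).map (ρ g)
    rw [Subgroup.coe_mul, map_mul, ← Submodule.map_comp]
    rfl

theorem finrank_map_rho (ρ : Representation F ↥(Zgrp F) (I27 → F)) (g : ↥(Zgrp F)) (W : Submodule F (I27 → F)) :
    finrank F ↥(W.map (ρ g)) = finrank F ↥W := by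
  refine (Submodule.equivMapOfInjective (ρ g) (fun x y hxy => ?_) W).symm.finrank_eq
  have h1 := congrArg (ρ g⁻¹) hxy
  rwa [← rho_mul, ← rho_mul, inv_mul_cancel, map_one] at h1

/-- **counting the conjugates of an `M`-stable subspace** -/
theorem Setup.count_sub [Finite F] [Finite A] (h : Setup Γ M ψ) {ρ : Representation F ↥(Zgrp F) (I27 → F)}
    (hρ : ρ = V F ∨ ρ = V' F) {W : Submodule F (I27 → F)} (hW : ∀ g ∈ M, ∀ w ∈ W, ρ g w ∈ W) {k : ℕ}
    (hk : finrank F ↥W = k) (h1 : 1 ≤ k) (h27 : k < 27) :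
    Nat.card ↥(Γ.map (ad F)) * ∏ i : Fin k, (Nat.card F ^ k - Nat.card F ^ i.val) ≤
      Nat.card (MulAut A) * Nat.card F ^ (27 * k) := by
  have h9 : finrank F (I27 → F) = 27 := by rw [finrank_fintype_fun_eq_card]; rfl
  have hbot : W ≠ ⊥ := by
    rintro rfl
    rw [finrank_bot] at hk
    omega
  have htop : W ≠ ⊤ := by
    rintro rfl
    rw [finrank_top, h9] at hk
    omega
  have hSG := h.SG_eq hρ hW hbot htop
  letI := subAct Γ ρ
  have h2 := h.card_le' (X := Submodule F (I27 → F)) W {U | finrank F ↥U = k} (fun g => by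
    show finrank F ↥(W.map (ρ g)) = k
    rw [finrank_map_rho, hk]) (fun g hg => by
    have hg' : W.map (ρ g) = W := hg
    rw [← hSG]
    refine mem_SG.2 ⟨g.2, fun w => ⟨fun hw => ?_, fun hw => ?_⟩⟩
    · rw [← hg'] at hw
      obtain ⟨w', hw', h3⟩ := hw
      have h4 := congrArg (ρ (g : ↥(Zgrp F))⁻¹) h3
      rw [← rho_mul, ← rho_mul, inv_mul_cancel, map_one] at h4
      have h5 : w' = w := h4
      rwa [← h5]
    · rw [← hg']
      exact ⟨w, hw, rfl⟩)
  have h3 := card_sub_mul_le (F := F) (U := I27 → F) k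
  rw [h9] at h3
  calc Nat.card ↥(Γ.map (ad F)) * ∏ i : Fin k, (Nat.card F ^ k - Nat.card F ^ i.val)
      ≤ Nat.card (MulAut A) * Nat.card {U : Submodule F (I27 → F) // finrank F ↥U = k} *
        ∏ i : Fin k, (Nat.card F ^ k - Nat.card F ^ i.val) := Nat.mul_le_mul_right _ h2
    _ = Nat.card (MulAut A) * (Nat.card {U : Submodule F (I27 → F) // finrank F ↥U = k} *
        ∏ i : Fin k, (Nat.card F ^ k - Nat.card F ^ i.val)) := by ring
    _ ≤ _ := Nat.mul_le_mul_left _ h3

end Cfsg.Agent.R2.H9.E6
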