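import Mathlib
import Cfsg.Agent.R2.H28.SL2.CF
import Cfsg.Agent.R2.H28.SL2.Lift

/-!
# Trilinear invariants of `SL(2, q)` in the defining characteristic (helper9)

`PP ι b ρ c` : a system of pure powers: `ℓ(w) = ∑ w₁^m w₂^(b-m) c_m`, `ρ g ℓ(w) = ℓ(g w)` for `w ∈ k²`.

* `tri_line` : an invariant trilinear form with `T(ℓ(e₁), ℓ(e₂), ·) = 0` vanishes;
* `tri_coef` : `T(ℓ(e₁), ℓ(e₂), c_n) ≠ 0` implies `n ≤_p b₃`, `n ≤_p b₂`, `b₃ - n ≤_p b₁`,
  `b₁ + 2 n ≡ b₂ + b₃` modulo `q - 1`;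
* `tri_zero` : the form vanishes if there is no such `n`;
* `IsV.exists_pp` : `V_b` has a system of pure powers.
-/

set_option autoImplicit false
set_option linter.unusedSectionVars false

namespace Cfsg.Agent.R2.H9.E6.Tri

open Matrix Cfsg.Agent.H943.SL2Rel Cfsg.Agent.H943.SL2Mod Cfsg.Agent.H943.RepAdd
open Cfsg.Agent.R2.H28.SL2

universe u v w

section pp

variable {k : Type u} [Field k] {L : Type w} [Field L] [Fintype L] [DecidableEq L] (ι : L →+* k)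
variable {E : Type*} [AddCommGroup E] [Module k E]

/-- the pure powers -/
def ell (b : ℕ) (c : ℕ → E) (w : k × k) : E :=
  ∑ m ∈ Finset.range (b + 1), (w.1 ^ m * w.2 ^ (b - m)) • c m

/-- the action of `SL(2, q)` on `k²` -/
def mv (g : SpecialLinearGroup (Fin 2) L) (w : k × k) : k × k :=
  (ι (g.1 0 0) * w.1 + ι (g.1 0 1) * w.2, ι (g.1 1 0) * w.1 + ι (g.1 1 1) * w.2)

/-- a system of pure powers -/
structure PP (b : ℕ) (ρ : Representation k (SpecialLinearGroup (Fin 2) L) E) (c : ℕ → E) : Prop where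
  act : ∀ g w, ρ g (ell b c w) = ell b c (mv ι g w)
  supp : ∀ m, (b.choose m : k) = 0 → c m = 0

theorem mv_mul (g h : SpecialLinearGroup (Fin 2) L) (w : k × k) : mv ι (g * h) w = mv ι g (mv ι h w) := by
  unfold mv
  ext1
  · show ι ((g.1 * h.1) 0 0) * w.1 + ι ((g.1 * h.1) 0 1) * w.2 = _
    rw [Matrix.mul_apply, Matrix.mul_apply, Fin.sum_univ_two, Fin.sum_univ_two, map_add, map_mul, map_mul, map_add,
      map_mul, map_mul]
    ring
  · show ι ((g.1 * h.1) 1 0) * w.1 + ι ((g.1 * h.1) 1 1) * w.2 = _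
    rw [Matrix.mul_apply, Matrix.mul_apply, Fin.sum_univ_two, Fin.sum_univ_two, map_add, map_mul, map_mul, map_add,
      map_mul, map_mul]
    ring

theorem mv_one (w : k × k) : mv ι (1 : SpecialLinearGroup (Fin 2) L) w = w := by
  unfold mv
  ext1
  · show ι ((1 : Matrix (Fin 2) (Fin 2) L) 0 0) * w.1 + ι ((1 : Matrix (Fin 2) (Fin 2) L) 0 1) * w.2 = _
    rw [Matrix.one_apply_eq, Matrix.one_apply_ne (by decide), map_one, map_zero]
    ring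
  · show ι ((1 : Matrix (Fin 2) (Fin 2) L) 1 0) * w.1 + ι ((1 : Matrix (Fin 2) (Fin 2) L) 1 1) * w.2 = _
    rw [Matrix.one_apply_eq, Matrix.one_apply_ne (by decide), map_one, map_zero]
    ring

theorem mv_u (x : L) (w : k × k) : mv ι (u x) w = (w.1 + ι x * w.2, w.2) := by
  unfold mv
  ext1
  · show ι 1 * w.1 + ι x * w.2 = _
    rw [map_one, one_mul]
  · show ι 0 * w.1 + ι 1 * w.2 = _
    rw [map_one, one_mul, map_zero, zero_mul, zero_add]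

theorem mv_h (a : Lˣ) (w : k × k) : mv ι (h a) w = (ι a * w.1, (ι a)⁻¹ * w.2) := by
  unfold mv
  ext1
  · show ι a * w.1 + ι 0 * w.2 = _
    rw [map_zero, zero_mul, add_zero]
  · show ι 0 * w.1 + ι (a : L)⁻¹ * w.2 = _
    rw [map_zero, zero_mul, zero_add, map_inv₀]

theorem mv_w (v : k × k) : mv ι (w : SpecialLinearGroup (Fin 2) L) v = (v.2, -v.1) := by
  unfold mv
  ext1
  · show ι 0 * v.1 + ι 1 * v.2 = _
    rw [map_zero, zero_mul, zero_add, map_one, one_mul]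
  · show ι (-1) * v.1 + ι 0 * v.2 = _
    rw [map_zero, zero_mul, add_zero, map_neg, map_one, neg_one_mul]

/-- the element with first column `(x, 1)` -/
def col (x : L) : SpecialLinearGroup (Fin 2) L := ⟨!![x, -1; 1, 0], by simp [Matrix.det_fin_two]⟩

theorem mv_col (x : L) : mv ι (col x) ((1, 0) : k × k) = (ι x, 1) := by
  unfold mv
  ext1
  · show ι x * 1 + ι (-1) * 0 = _
    rw [mul_one, mul_zero, add_zero]
  · show ι 1 * 1 + ι 0 * 0 = _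
    rw [map_one, mul_one, mul_zero, add_zero]

/-- lower unipotent elements -/
def lo (x : L) : SpecialLinearGroup (Fin 2) L := ⟨!![1, 0; x, 1], by simp [Matrix.det_fin_two]⟩

theorem mv_lo (x : L) (v : k × k) : mv ι (lo x) v = (v.1, ι x * v.1 + v.2) := by
  unfold mv
  ext1
  · show ι 1 * v.1 + ι 0 * v.2 = _
    rw [map_one, one_mul, map_zero, zero_mul, add_zero]
  · show ι x * v.1 + ι 1 * v.2 = _
    rw [map_one, one_mul]

theorem ell_top (b : ℕ) (c : ℕ → E) : ell b c ((1, 0) : k × k) = c b := by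
  unfold ell
  rw [Finset.sum_eq_single b]
  · rw [one_pow, Nat.sub_self, pow_zero, one_mul, one_smul]
  · intro m hm hmb
    rw [Finset.mem_range] at hm
    rw [zero_pow (by omega), mul_zero, zero_smul]
  · intro hb
    exact absurd (Finset.mem_range.2 (Nat.lt_succ_self b)) hb

theorem ell_bot (b : ℕ) (c : ℕ → E) : ell b c ((0, 1) : k × k) = c 0 := by
  unfold ell
  rw [Finset.sum_eq_single 0]
  · rw [one_pow, pow_zero, one_mul, one_smul]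
  · intro m _ hmb
    rw [zero_pow hmb, zero_mul, zero_smul]
  · intro hb
    exact absurd (Finset.mem_range.2 (Nat.succ_pos b)) hb

variable {ι} {b : ℕ} {ρ : Representation k (SpecialLinearGroup (Fin 2) L) E} {c : ℕ → E}

theorem PP.supp' (P : PP ι b ρ c) {m : ℕ} (hm : b < m) : c m = 0 :=
  P.supp m (by rw [Nat.choose_eq_zero_of_lt hm, Nat.cast_zero])

theorem PP.ell_one (P : PP ι b ρ c) {n : ℕ} (hn : b < n) (x : k) :
    ell b c (x, 1) = ∑ m ∈ Finset.range n, x ^ m • c m := by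
  unfold ell
  rw [← Finset.sum_subset (Finset.range_subset_range.2 (show b + 1 ≤ n by omega))]
  · refine Finset.sum_congr rfl fun m _ => ?_
    rw [one_pow, mul_one]
  · intro m _ hm
    rw [Finset.mem_range, not_lt] at hm
    rw [P.supp' (by omega), smul_zero]

/-- the reversed coefficients -/
def rv (b : ℕ) (c : ℕ → E) (j : ℕ) : E := if j ≤ b then c (b - j) else 0

theorem PP.ell_two (_ : PP ι b ρ c) {n : ℕ} (hn : b < n) (y : k) :
    ell b c (1, y) = ∑ j ∈ Finset.range n, y ^ j • rv b c j := by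
  unfold ell
  rw [← Finset.sum_subset (Finset.range_subset_range.2 (show b + 1 ≤ n by omega)), ← Finset.sum_range_reflect]
  · refine Finset.sum_congr rfl fun m hm => ?_
    rw [Finset.mem_range] at hm
    rw [one_pow, one_mul, rv, if_pos (by omega)]
    congr 2
    omega
  · intro m _ hm
    rw [Finset.mem_range, not_lt] at hm
    rw [rv, if_neg (by omega), smul_zero]

theorem polyK {n : ℕ} (hn : n ≤ Fintype.card L) (a : ℕ → k) (h0 : ∀ x : L, ∑ m ∈ Finset.range n, ι x ^ m * a m = 0) :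
    ∀ m < n, a m = 0 := by
  intro m hm
  obtain ⟨n, rfl⟩ : ∃ n', n = n' + 1 := ⟨n - 1, by omega⟩
  exact coeff_zero ι ι.injective (n := n) (by omega) a (fun t => by
    rw [← h0 t]
    exact Finset.sum_congr rfl fun j _ => mul_comm _ _) m (by omega)

theorem PP.ext1 (P : PP ι b ρ c) (hb : b < Fintype.card L) (f : E →ₗ[k] k) (h0 : ∀ x : L, f (ell b c (ι x, 1)) = 0) (m : ℕ) :
    f (c m) = 0 := by
  rcases Nat.lt_or_ge b m with hm | hm
  · rw [P.supp' hm, map_zero]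
  refine polyK (ι := ι) (n := Fintype.card L) le_rfl (fun m => f (c m)) (fun x => ?_) m (by omega)
  rw [← h0 x, P.ell_one hb, map_sum]
  refine Finset.sum_congr rfl fun m _ => ?_
  rw [map_smul, smul_eq_mul]

theorem PP.ell_zero (f : E →ₗ[k] k) (h0 : ∀ m, f (c m) = 0) (v : k × k) : f (ell b c v) = 0 := by
  unfold ell
  rw [map_sum]
  refine Finset.sum_eq_zero fun m _ => ?_
  rw [map_smul, h0, smul_zero]

theorem PP.act_inv (P : PP ι b ρ c) (g : SpecialLinearGroup (Fin 2) L) (v : k × k) :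
    ρ g (ell b c (mv ι g⁻¹ v)) = ell b c v := by
  rw [P.act, ← mv_mul, mul_inv_cancel, mv_one]

end pp

section tri

variable {k : Type u} [Field k] {L : Type w} [Field L] [Fintype L] [DecidableEq L] {ι : L →+* k}
variable {E₁ : Type*} [AddCommGroup E₁] [Module k E₁] {E₂ : Type*} [AddCommGroup E₂] [Module k E₂]
  {E₃ : Type*} [AddCommGroup E₃] [Module k E₃]
variable {ρ₁ : Representation k (SpecialLinearGroup (Fin 2) L) E₁} {ρ₂ : Representation k (SpecialLinearGroup (Fin 2) L) E₂}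
  {ρ₃ : Representation k (SpecialLinearGroup (Fin 2) L) E₃} {b₁ b₂ b₃ : ℕ} {c₁ : ℕ → E₁} {c₂ : ℕ → E₂} {c₃ : ℕ → E₃}
variable (T : E₁ →ₗ[k] E₂ →ₗ[k] E₃ →ₗ[k] k)

/-- **an invariant trilinear form is determined by `T(ℓ(e₁), ℓ(e₂), ·)`** -/
theorem tri_line (hT : ∀ g x y z, T (ρ₁ g x) (ρ₂ g y) (ρ₃ g z) = T x y z) (P₁ : PP ι b₁ ρ₁ c₁) (P₂ : PP ι b₂ ρ₂ c₂)
    (P₃ : PP ι b₃ ρ₃ c₃) (h₁ : b₁ < Fintype.card L) (h₂ : b₂ < Fintype.card L) (h₃ : b₃ < Fintype.card L)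
    (h0 : ∀ n, T (c₁ b₁) (c₂ 0) (c₃ n) = 0) (m n l : ℕ) : T (c₁ m) (c₂ n) (c₃ l) = 0 := by
  have s1 : ∀ v : k × k, T (c₁ b₁) (c₂ 0) (ell b₃ c₃ v) = 0 := PP.ell_zero (T (c₁ b₁) (c₂ 0)) h0
  have s2 : ∀ (x : L) (v : k × k), T (c₁ b₁) (ell b₂ c₂ (ι x, 1)) (ell b₃ c₃ v) = 0 := by
    intro x v
    have e1 : ρ₁ (u x) (c₁ b₁) = c₁ b₁ := by
      conv_lhs => rw [← ell_top (k := k) b₁ c₁]
      rw [P₁.act, mv_u, mul_zero, add_zero, ell_top]
    have e2 : ρ₂ (u x) (c₂ 0) = ell b₂ c₂ (ι x, 1) := by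
      conv_lhs => rw [← ell_bot (k := k) b₂ c₂]
      rw [P₂.act, mv_u, mul_one, zero_add]
    have e3 := hT (u x) (c₁ b₁) (c₂ 0) (ell b₃ c₃ (mv ι (u x)⁻¹ v))
    rw [e1, e2, P₃.act_inv, s1] at e3
    exact e3
  have s3 : ∀ (n : ℕ) (v : k × k), T (c₁ b₁) (c₂ n) (ell b₃ c₃ v) = 0 := fun n v =>
    P₂.ext1 h₂ ((T (c₁ b₁)).flip (ell b₃ c₃ v)) (fun x => s2 x v) n
  have s4 : ∀ v v' : k × k, T (c₁ b₁) (ell b₂ c₂ v) (ell b₃ c₃ v') = 0 := fun v v' =>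
    PP.ell_zero ((T (c₁ b₁)).flip (ell b₃ c₃ v')) (fun n => s3 n v') v
  have s5 : ∀ (x : L) (v v' : k × k), T (ell b₁ c₁ (ι x, 1)) (ell b₂ c₂ v) (ell b₃ c₃ v') = 0 := by
    intro x v v'
    have e1 : ρ₁ (col x) (c₁ b₁) = ell b₁ c₁ (ι x, 1) := by
      conv_lhs => rw [← ell_top (k := k) b₁ c₁]
      rw [P₁.act, mv_col]
    have e3 := hT (col x) (c₁ b₁) (ell b₂ c₂ (mv ι (col x)⁻¹ v)) (ell b₃ c₃ (mv ι (col x)⁻¹ v'))
    rw [e1, P₂.act_inv, P₃.act_inv, s4] at e3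
    exact e3
  have s6 : ∀ (m : ℕ) (v v' : k × k), T (c₁ m) (ell b₂ c₂ v) (ell b₃ c₃ v') = 0 := fun m v v' =>
    P₁.ext1 h₁ ((T.flip (ell b₂ c₂ v)).flip (ell b₃ c₃ v')) (fun x => s5 x v v') m
  have s7 : ∀ (m n : ℕ) (v' : k × k), T (c₁ m) (c₂ n) (ell b₃ c₃ v') = 0 := fun m n v' =>
    P₂.ext1 h₂ ((T (c₁ m)).flip (ell b₃ c₃ v')) (fun x => s6 m _ v') n
  exact P₃.ext1 h₃ (T (c₁ m) (c₂ n)) (fun x => s7 m n _) l

/-- **the possible coefficients of `T(ℓ(e₁), ℓ(e₂), ·)`** -/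
theorem tri_coef (hT : ∀ g x y z, T (ρ₁ g x) (ρ₂ g y) (ρ₃ g z) = T x y z) (P₁ : PP ι b₁ ρ₁ c₁) (P₂ : PP ι b₂ ρ₂ c₂)
    (P₃ : PP ι b₃ ρ₃ c₃) (h₁ : b₁ < Fintype.card L) (h₂ : b₂ < Fintype.card L) (h₃ : b₃ < Fintype.card L)
    {n : ℕ} (h0 : T (c₁ b₁) (c₂ 0) (c₃ n) ≠ 0) : n ≤ b₃ ∧ (b₃.choose n : k) ≠ 0 ∧ (b₂.choose n : k) ≠ 0 ∧
      b₃ - n ≤ b₁ ∧ (b₁.choose (b₃ - n) : k) ≠ 0 ∧
      (b₁ + 2 * n) % (Fintype.card L - 1) = (b₂ + b₃) % (Fintype.card L - 1) := by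
  classical
  have hc : (b₃.choose n : k) ≠ 0 := fun hc => h0 (by rw [P₃.supp n hc, map_zero])
  have hn : n ≤ b₃ := by
    by_contra hcon
    exact hc (by rw [Nat.choose_eq_zero_of_lt (by omega), Nat.cast_zero])
  refine ⟨hn, hc, ?_⟩
  -- (1)
  have a1 : ∀ j < Fintype.card L, T (c₁ b₁) (c₂ j) (c₃ 0) - (-1) ^ j * T (c₁ b₁) (c₂ 0) (c₃ j) = 0 := by
    refine polyK (ι := ι) le_rfl _ fun x => ?_
    have e1 : ρ₁ (u x) (c₁ b₁) = c₁ b₁ := by
      conv_lhs => rw [← ell_top (k := k) b₁ c₁]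
      rw [P₁.act, mv_u, mul_zero, add_zero, ell_top]
    have e2 : ρ₂ (u x) (c₂ 0) = ell b₂ c₂ (ι x, 1) := by
      conv_lhs => rw [← ell_bot (k := k) b₂ c₂]
      rw [P₂.act, mv_u, mul_one, zero_add]
    have e4 : ρ₃ (u x) (ell b₃ c₃ (-ι x, 1)) = c₃ 0 := by
      rw [P₃.act, mv_u, mul_one, neg_add_cancel, ell_bot]
    have e3 := hT (u x) (c₁ b₁) (c₂ 0) (ell b₃ c₃ (-ι x, 1))
    rw [e1, e2, e4, P₂.ell_one h₂, P₃.ell_one h₃, map_sum, map_sum, LinearMap.sum_apply] at e3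
    simp only [map_smul, LinearMap.smul_apply, smul_eq_mul] at e3
    have e5 : ∀ m, ι x ^ m * (T (c₁ b₁) (c₂ m) (c₃ 0) - (-1) ^ m * T (c₁ b₁) (c₂ 0) (c₃ m)) =
        ι x ^ m * T (c₁ b₁) (c₂ m) (c₃ 0) - (-ι x) ^ m * T (c₁ b₁) (c₂ 0) (c₃ m) := by
      intro m
      rw [neg_pow (ι x)]
      ring
    rw [Finset.sum_congr rfl fun m _ => e5 m, Finset.sum_sub_distrib, e3, sub_self]
  have hb2 : (b₂.choose n : k) ≠ 0 := by
    intro hc
    have h4 := a1 n (by omega)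
    rw [P₂.supp n hc, map_zero, LinearMap.zero_apply, zero_sub, neg_eq_zero, mul_eq_zero] at h4
    exact h0 (h4.resolve_left (pow_ne_zero _ (neg_ne_zero.2 one_ne_zero)))
  refine ⟨hb2, ?_⟩
  -- (2)
  have a2 : ∀ j < Fintype.card L, T (rv b₁ c₁ j) (c₂ 0) (c₃ b₃) - (-1) ^ j * T (c₁ b₁) (c₂ 0) (rv b₃ c₃ j) = 0 := by
    refine polyK (ι := ι) le_rfl _ fun x => ?_
    have e1 : ρ₁ (lo x) (c₁ b₁) = ell b₁ c₁ (1, ι x) := by
      conv_lhs => rw [← ell_top (k := k) b₁ c₁]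
      rw [P₁.act, mv_lo, mul_one, add_zero]
    have e2 : ρ₂ (lo x) (c₂ 0) = c₂ 0 := by
      conv_lhs => rw [← ell_bot (k := k) b₂ c₂]
      rw [P₂.act, mv_lo, mul_zero, zero_add, ell_bot]
    have e4 : ρ₃ (lo x) (ell b₃ c₃ (1, -ι x)) = c₃ b₃ := by
      rw [P₃.act, mv_lo, mul_one, add_neg_cancel, ell_top]
    have e3 := hT (lo x) (c₁ b₁) (c₂ 0) (ell b₃ c₃ (1, -ι x))
    rw [e1, e2, e4, P₁.ell_two h₁, P₃.ell_two h₃, map_sum, map_sum, LinearMap.sum_apply, LinearMap.sum_apply] at e3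
    simp only [map_smul, LinearMap.smul_apply, smul_eq_mul] at e3
    have e5 : ∀ m, ι x ^ m * (T (rv b₁ c₁ m) (c₂ 0) (c₃ b₃) - (-1) ^ m * T (c₁ b₁) (c₂ 0) (rv b₃ c₃ m)) =
        ι x ^ m * T (rv b₁ c₁ m) (c₂ 0) (c₃ b₃) - (-ι x) ^ m * T (c₁ b₁) (c₂ 0) (rv b₃ c₃ m) := by
      intro m
      rw [neg_pow (ι x)]
      ring
    rw [Finset.sum_congr rfl fun m _ => e5 m, Finset.sum_sub_distrib, e3, sub_self]
  have h5 := a2 (b₃ - n) (by omega)
  rw [rv, rv, if_pos (Nat.sub_le b₃ n), Nat.sub_sub_self hn] at h5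
  have hle : b₃ - n ≤ b₁ := by
    by_contra hcon
    rw [if_neg hcon, map_zero, LinearMap.zero_apply, LinearMap.zero_apply, zero_sub, neg_eq_zero, mul_eq_zero] at h5
    exact h0 (h5.resolve_left (pow_ne_zero _ (neg_ne_zero.2 one_ne_zero)))
  rw [if_pos hle] at h5
  have hb1 : (b₁.choose (b₃ - n) : k) ≠ 0 := by
    intro hc
    rw [← Nat.choose_symm hle] at hc
    rw [P₁.supp _ hc, map_zero, LinearMap.zero_apply, LinearMap.zero_apply, zero_sub, neg_eq_zero, mul_eq_zero] at h5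
    exact h0 (h5.resolve_left (pow_ne_zero _ (neg_ne_zero.2 one_ne_zero)))
  refine ⟨hle, hb1, ?_⟩
  -- (3)
  refine mod_of_pow ι fun a => ?_
  have ha : ι (a : L) ≠ 0 := by
    rw [Ne, map_eq_zero]
    exact a.ne_zero
  have a3 : ∀ j < Fintype.card L, ι (a : L) ^ (b₁ + 2 * j) * T (c₁ b₁) (c₂ 0) (c₃ j) -
      ι (a : L) ^ (b₂ + b₃) * T (c₁ b₁) (c₂ 0) (c₃ j) = 0 := by
    refine polyK (ι := ι) le_rfl _ fun x => ?_
    have hs : ∀ (b : ℕ) (c : ℕ → E₁) (x y s : k), ell b c (s * x, s * y) = s ^ b • ell b c (x, y) := by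
      intro b c x y s
      unfold ell
      rw [Finset.smul_sum]
      refine Finset.sum_congr rfl fun m hm => ?_
      rw [Finset.mem_range] at hm
      rw [smul_smul]
      congr 1
      simp only
      rw [mul_pow, mul_pow]
      calc s ^ m * x ^ m * (s ^ (b - m) * y ^ (b - m)) = (s ^ m * s ^ (b - m)) * (x ^ m * y ^ (b - m)) := by ring
        _ = _ := by rw [← pow_add, Nat.add_sub_cancel' (by omega)]
    have hs2 : ∀ (b : ℕ) (c : ℕ → E₂) (x y s : k), ell b c (s * x, s * y) = s ^ b • ell b c (x, y) := by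
      intro b c x y s
      unfold ell
      rw [Finset.smul_sum]
      refine Finset.sum_congr rfl fun m hm => ?_
      rw [Finset.mem_range] at hm
      rw [smul_smul]
      congr 1
      simp only
      rw [mul_pow, mul_pow]
      calc s ^ m * x ^ m * (s ^ (b - m) * y ^ (b - m)) = (s ^ m * s ^ (b - m)) * (x ^ m * y ^ (b - m)) := by ring
        _ = _ := by rw [← pow_add, Nat.add_sub_cancel' (by omega)]
    have hs3 : ∀ (b : ℕ) (c : ℕ → E₃) (x y s : k), ell b c (s * x, s * y) = s ^ b • ell b c (x, y) := by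
      intro b c x y s
      unfold ell
      rw [Finset.smul_sum]
      refine Finset.sum_congr rfl fun m hm => ?_
      rw [Finset.mem_range] at hm
      rw [smul_smul]
      congr 1
      simp only
      rw [mul_pow, mul_pow]
      calc s ^ m * x ^ m * (s ^ (b - m) * y ^ (b - m)) = (s ^ m * s ^ (b - m)) * (x ^ m * y ^ (b - m)) := by ring
        _ = _ := by rw [← pow_add, Nat.add_sub_cancel' (by omega)]
    have e1 : ρ₁ (h a) (c₁ b₁) = ι (a : L) ^ b₁ • c₁ b₁ := by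
      conv_lhs => rw [← ell_top (k := k) b₁ c₁]
      rw [P₁.act, mv_h, mul_zero, mul_one]
      have := hs b₁ c₁ 1 0 (ι (a : L))
      rw [mul_one, mul_zero, ell_top] at this
      exact this
    have e2 : ρ₂ (h a) (c₂ 0) = (ι (a : L))⁻¹ ^ b₂ • c₂ 0 := by
      conv_lhs => rw [← ell_bot (k := k) b₂ c₂]
      rw [P₂.act, mv_h, mul_zero, mul_one]
      have := hs2 b₂ c₂ 0 1 (ι (a : L))⁻¹
      rw [mul_one, mul_zero, ell_bot] at this
      exact this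
    have e4 : ρ₃ (h a) (ell b₃ c₃ (ι x, 1)) = (ι (a : L))⁻¹ ^ b₃ • ell b₃ c₃ (ι (a : L) ^ 2 * ι x, 1) := by
      rw [P₃.act, mv_h, ← hs3]
      congr 2
      rw [sq, mul_assoc, ← mul_assoc (ι (a : L))⁻¹, inv_mul_cancel₀ ha, one_mul]
    have e3 := hT (h a) (c₁ b₁) (c₂ 0) (ell b₃ c₃ (ι x, 1))
    rw [e1, e2, e4] at e3
    simp only [map_smul, LinearMap.smul_apply, smul_eq_mul] at e3
    have e5 : ∀ y : k, T (c₁ b₁) (c₂ 0) (ell b₃ c₃ (y, 1)) =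
        ∑ m ∈ Finset.range (Fintype.card L), y ^ m * T (c₁ b₁) (c₂ 0) (c₃ m) := by
      intro y
      rw [P₃.ell_one h₃, map_sum]
      refine Finset.sum_congr rfl fun m _ => ?_
      rw [map_smul, smul_eq_mul]
    have e6 : ι (a : L) ^ b₁ * T (c₁ b₁) (c₂ 0) (ell b₃ c₃ (ι (a : L) ^ 2 * ι x, 1)) =
        ι (a : L) ^ (b₂ + b₃) * T (c₁ b₁) (c₂ 0) (ell b₃ c₃ (ι x, 1)) := by
      rw [← e3, pow_add]
      have e7 : ι (a : L) ^ b₂ * (ι (a : L))⁻¹ ^ b₂ = 1 := by rw [← mul_pow, mul_inv_cancel₀ ha, one_pow]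
      have e8 : ι (a : L) ^ b₃ * (ι (a : L))⁻¹ ^ b₃ = 1 := by rw [← mul_pow, mul_inv_cancel₀ ha, one_pow]
      linear_combination (-(ι (a : L) ^ b₁ * T (c₁ b₁) (c₂ 0) (ell b₃ c₃ (ι (a : L) ^ 2 * ι x, 1)) *
        (ι (a : L) ^ b₂ * (ι (a : L))⁻¹ ^ b₂))) * e8 -
        ι (a : L) ^ b₁ * T (c₁ b₁) (c₂ 0) (ell b₃ c₃ (ι (a : L) ^ 2 * ι x, 1)) * e7
    rw [e5, e5] at e6
    rw [Finset.mul_sum, Finset.mul_sum] at e6
    have e9 : ∀ m, ι x ^ m * (ι (a : L) ^ (b₁ + 2 * m) * T (c₁ b₁) (c₂ 0) (c₃ m) -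
        ι (a : L) ^ (b₂ + b₃) * T (c₁ b₁) (c₂ 0) (c₃ m)) =
        ι (a : L) ^ b₁ * ((ι (a : L) ^ 2 * ι x) ^ m * T (c₁ b₁) (c₂ 0) (c₃ m)) -
        ι (a : L) ^ (b₂ + b₃) * (ι x ^ m * T (c₁ b₁) (c₂ 0) (c₃ m)) := by
      intro m
      rw [pow_add _ b₁, pow_mul, mul_pow]
      ring
    rw [Finset.sum_congr rfl fun m _ => e9 m, Finset.sum_sub_distrib, e6, sub_self]
  have h6 := a3 n (by omega)
  rw [← sub_mul, mul_eq_zero] at h6
  exact sub_eq_zero.1 (h6.resolve_right h0)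

/-- **vanishing** -/
theorem tri_zero (hT : ∀ g x y z, T (ρ₁ g x) (ρ₂ g y) (ρ₃ g z) = T x y z) (P₁ : PP ι b₁ ρ₁ c₁) (P₂ : PP ι b₂ ρ₂ c₂)
    (P₃ : PP ι b₃ ρ₃ c₃) (h₁ : b₁ < Fintype.card L) (h₂ : b₂ < Fintype.card L) (h₃ : b₃ < Fintype.card L)
    (h0 : ∀ n ≤ b₃, (b₃.choose n : k) ≠ 0 → (b₂.choose n : k) ≠ 0 → b₃ - n ≤ b₁ → (b₁.choose (b₃ - n) : k) ≠ 0 →
      (b₁ + 2 * n) % (Fintype.card L - 1) = (b₂ + b₃) % (Fintype.card L - 1) → False) (m n l : ℕ) :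
    T (c₁ m) (c₂ n) (c₃ l) = 0 := by
  refine tri_line T hT P₁ P₂ P₃ h₁ h₂ h₃ (fun n => ?_) m n l
  by_contra hne
  obtain ⟨a1, a2, a3, a4, a5, a6⟩ := tri_coef T hT P₁ P₂ P₃ h₁ h₂ h₃ hne
  exact h0 n a1 a2 a3 a4 a5 a6

end tri

end Cfsg.Agent.R2.H9.E6.Tri
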