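import Mathlib
import Cfsg.Agent.R2.H9.E6.Tri

/-!
# Pure powers in `V_b` (helper9)

* `exists_pp` : `V_b` has a system of pure powers, its coefficients span and are linearly independent;
* `exists_pp_sub` : the version for an invariant subspace of a representation.
-/

set_option autoImplicit false
set_option linter.unusedSectionVars false

namespace Cfsg.Agent.R2.H9.E6.Tri

open Matrix Cfsg.Agent.H943.SL2Rel Cfsg.Agent.H943.SL2Mod Cfsg.Agent.H943.RepAdd
open Cfsg.Agent.R2.H28.SL2

universe u v w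

variable {k : Type u} [Field k] {L : Type w} [Field L] [Fintype L] [DecidableEq L] (ι : L →+* k)

/-- the pure power `v ↦ (v · w)^b` -/
def Lf (b : ℕ) (w : k × k) : L × L → k := fun v => (ι v.1 * w.1 + ι v.2 * w.2) ^ b

theorem Lf_eq (b : ℕ) (w : k × k) : Lf ι b w =
    ∑ m ∈ Finset.range (b + 1), (w.1 ^ m * w.2 ^ (b - m)) • ((b.choose m : k) • mon ι b m) := by
  funext v
  rw [Finset.sum_apply, Lf, add_pow]
  refine Finset.sum_congr rfl fun m _ => ?_
  rw [Pi.smul_apply, Pi.smul_apply, smul_eq_mul, smul_eq_mul, mon, mul_pow, mul_pow]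
  ring

theorem fRep_Lf (b : ℕ) (g : SpecialLinearGroup (Fin 2) L) (w : k × k) : fRep k L g (Lf ι b w) = Lf ι b (mv ι g w) := by
  funext v
  show (ι (v.1 * g.1 0 0 + v.2 * g.1 1 0) * w.1 + ι (v.1 * g.1 0 1 + v.2 * g.1 1 1) * w.2) ^ b =
    (ι v.1 * (ι (g.1 0 0) * w.1 + ι (g.1 0 1) * w.2) + ι v.2 * (ι (g.1 1 0) * w.1 + ι (g.1 1 1) * w.2)) ^ b
  rw [map_add, map_add, map_mul, map_mul, map_mul, map_mul]
  congr 1
  ring

variable (p : ℕ) [Fact p.Prime] [CharP k p] [CharP L p] [DecidableEq k]
variable {E : Type*} [AddCommGroup E] [Module k E]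

/-- **`V_b` has a system of pure powers** -/
theorem exists_pp {ρ : Representation k (SpecialLinearGroup (Fin 2) L) E} {b : ℕ} (hV : IsV ι p ρ b) :
    ∃ c : ℕ → E, PP ι b ρ c ∧ Submodule.span k (Set.range c) = ⊤ ∧
      ∀ d : ℕ → k, ∑ m ∈ Finset.range (b + 1), d m • c m = 0 → ∀ m ≤ b, (b.choose m : k) ≠ 0 → d m = 0 := by
  classical
  obtain ⟨hb, φ, hφ⟩ := hV
  have hs1 := neg_one_pow_Q (F := L) ι
  have hb' : b < Fintype.card L := by
    have := one_lt (F := L)
    omega
  let c0 : ℕ → Vb ι b := fun m => if hm : m ∈ Bb k b then ⟨(b.choose m : k) • mon ι b m,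
    (Vb ι b).smul_mem _ (Cfsg.Agent.H179.SLC.mon_mem_Vb ι p hs1 hb hm)⟩ else 0
  have hc0 : ∀ m, ((c0 m : Vb ι b) : L × L → k) = (b.choose m : k) • mon ι b m := by
    intro m
    by_cases hm : m ∈ Bb k b
    · simp only [c0, dif_pos hm]
    · simp only [c0, dif_neg hm]
      have h1 : (b.choose m : k) = 0 := by
        by_contra h1
        apply hm
        refine ⟨?_, h1⟩
        by_contra hcon
        exact h1 (by rw [Nat.choose_eq_zero_of_lt (by omega), Nat.cast_zero])
      rw [h1, zero_smul]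
      rfl
  have hell : ∀ w : k × k, ((ell b c0 w : Vb ι b) : L × L → k) = Lf ι b w := by
    intro w
    rw [Lf_eq]
    unfold ell
    rw [Submodule.coe_sum]
    refine Finset.sum_congr rfl fun m _ => ?_
    rw [Submodule.coe_smul, hc0]
  have hmap : ∀ w : k × k, ell b (fun m => φ (c0 m)) w = φ (ell b c0 w) := by
    intro w
    unfold ell
    rw [map_sum]
    refine Finset.sum_congr rfl fun m _ => ?_
    rw [map_smul]
  refine ⟨fun m => φ (c0 m), ⟨?_, ?_⟩, ?_, ?_⟩
  · intro g w
    rw [hmap, hmap, ← hφ]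
    congr 1
    apply Subtype.ext
    show fRep k L g ((ell b c0 w : Vb ι b) : L × L → k) = _
    rw [hell, hell, fRep_Lf]
  · intro m hm
    have h1 : c0 m = 0 := by
      apply Subtype.ext
      rw [hc0, hm, zero_smul]
      rfl
    simp only [h1, map_zero]
  · rw [eq_top_iff]
    intro x _
    obtain ⟨y, rfl⟩ := φ.surjective x
    have h1 : y ∈ Submodule.span k (Set.range c0) := by
      have h2 := Vb_le ι b y.2
      have h3 : Submodule.span k (mon ι b '' Bb k b) ≤ (Submodule.span k (Set.range c0)).map (Vb ι b).subtype := by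
        rw [Submodule.span_le]
        rintro _ ⟨m, hm, rfl⟩
        refine ⟨((b.choose m : k))⁻¹ • c0 m, Submodule.smul_mem _ _ (Submodule.subset_span ⟨m, rfl⟩), ?_⟩
        rw [map_smul, Submodule.subtype_apply, hc0, smul_smul, inv_mul_cancel₀ hm.2, one_smul]
      obtain ⟨z, hz, hzy⟩ := h3 h2
      have : z = y := Subtype.ext hzy
      rwa [this] at hz
    have h2 : Submodule.span k (Set.range fun m => φ (c0 m)) = (Submodule.span k (Set.range c0)).map (φ : Vb ι b →ₗ[k] E) := by
      rw [Submodule.map_span, ← Set.range_comp]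
      rfl
    rw [h2]
    exact ⟨y, h1, rfl⟩
  · intro d hd m hm hbm
    have h1 : ∑ m ∈ Finset.range (b + 1), d m • c0 m = 0 := by
      apply φ.injective
      rw [map_sum, map_zero, ← hd]
      exact Finset.sum_congr rfl fun m _ => by rw [map_smul]
    have h2 : ∀ y : L, ∑ m ∈ Finset.range (b + 1), (d m * (b.choose m : k)) * mon ι b m (1, y) = 0 := by
      intro y
      have h3 := congrArg (fun z : Vb ι b => (z : L × L → k) (1, y)) h1
      simp only [Submodule.coe_sum, Submodule.coe_smul, hc0, Finset.sum_apply, Pi.smul_apply, smul_eq_mul,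
        Submodule.coe_zero, Pi.zero_apply] at h3
      rw [← h3]
      exact Finset.sum_congr rfl fun m _ => by ring
    have h3 := mon_indep ι ι.injective hb' _ h2 m hm
    exact (mul_eq_zero.1 h3).resolve_right hbm

/-- **pure powers in an invariant subspace** -/
theorem exists_pp_sub {ρ : Representation k (SpecialLinearGroup (Fin 2) L) E} {W : Submodule k E}
    {hW : ∀ g, ∀ x ∈ W, ρ g x ∈ W} {b : ℕ} (hV : IsV ι p (subRep ρ W hW) b) :
    ∃ c : ℕ → E, PP ι b ρ c ∧ Submodule.span k (Set.range c) = W ∧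
      ∀ d : ℕ → k, ∑ m ∈ Finset.range (b + 1), d m • c m = 0 → ∀ m ≤ b, (b.choose m : k) ≠ 0 → d m = 0 := by
  obtain ⟨c, h1, h2, h3⟩ := exists_pp ι p hV
  have hmap : ∀ w : k × k, ell b (fun m => (c m : E)) w = ((ell b c w : W) : E) := by
    intro w
    unfold ell
    rw [Submodule.coe_sum]
    exact Finset.sum_congr rfl fun m _ => by rw [Submodule.coe_smul]
  refine ⟨fun m => (c m : E), ⟨?_, ?_⟩, ?_, ?_⟩
  · intro g w
    rw [hmap, hmap, ← h1.act]
    rfl
  · intro m hm
    rw [h1.supp m hm]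
    rfl
  · have h4 : Submodule.span k (Set.range fun m => (c m : E)) = (Submodule.span k (Set.range c)).map W.subtype := by
      rw [Submodule.map_span, ← Set.range_comp]
      rfl
    rw [h4, h2, Submodule.map_top, Submodule.range_subtype]
  · intro d hd m hm hbm
    refine h3 d ?_ m hm hbm
    apply Subtype.ext
    rw [Submodule.coe_sum]
    exact hd

end Cfsg.Agent.R2.H9.E6.Tri
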