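import Mathlib
import Cfsg.Agent.R2.H28.SL2.Bas
import Cfsg.Agent.R2.H9.E6.TriV

/-!
# Exact gradings for `SL(2, q)`-invariant trilinear forms (helper9)

`Bs τ ρ n v` : `v 0, …, v n` is a basis of a module of type `L(n)` (with the action twisted by `τ : K →+* k`).

* `tri_grade` : an invariant trilinear form on `L(n₁) × L(n₂) × L(n₃)` vanishes off total weight `0`
  if `n₂ + n₃ < n₁ + (q - 1)`;
* `bil_grade` : the same for bilinear forms.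
-/

set_option autoImplicit false
set_option linter.unusedSectionVars false

namespace Cfsg.Agent.R2.H9.E6.Gr

open Matrix Cfsg.Agent.H943.SL2Rel Cfsg.Agent.H943.SL2Mod Cfsg.Agent.H943.RepAdd
open Cfsg.Agent.R2.H28.SL2

universe u v w

variable {k : Type u} [Field k] {K : Type w} [Field K] [Fintype K] [DecidableEq K] (τ : K →+* k)

/-- the standard basis of a module of type `L(n)` -/
structure Bs {E : Type*} [AddCommGroup E] [Module k E] (ρ : Representation k (SpecialLinearGroup (Fin 2) K) E) (n : ℕ)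
    (v : ℕ → E) : Prop where
  zero : ∀ s, n < s → v s = 0
  u : ∀ s ≤ n, ∀ t, ρ (u t) (v s) = ∑ j ∈ Finset.range (n - s + 1), (((n - s).choose j : k) * τ t ^ j) • v (s + j)
  h : ∀ s ≤ n, ∀ a : Kˣ, ρ (h a) (v s) = (τ a ^ s * (τ a)⁻¹ ^ (n - s)) • v s
  w : ∀ s ≤ n, ρ w (v s) = (-1 : k) ^ s • v (n - s)

/-- the vectors of index at least `m` -/
def Hi {E : Type*} [AddCommGroup E] [Module k E] (v : ℕ → E) (m : ℕ) : Submodule k E :=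
  Submodule.span k (v '' {s | m ≤ s})

section hi

variable {E : Type*} [AddCommGroup E] [Module k E] {v : ℕ → E}

theorem mem_Hi {m s : ℕ} (h : m ≤ s) : v s ∈ Hi (k := k) v m := Submodule.subset_span ⟨s, h, rfl⟩

theorem Hi_mono {m m' : ℕ} (h : m ≤ m') : Hi (k := k) v m' ≤ Hi v m :=
  Submodule.span_mono (Set.image_mono fun _ hs => h.trans hs)

variable {τ} {ρ : Representation k (SpecialLinearGroup (Fin 2) K) E} {n : ℕ}

theorem Bs.u_two (B : Bs τ ρ n v) {s : ℕ} (hs : s ≤ n) (t : K) : ∃ r ∈ Hi (k := k) v (s + 2),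
    ρ (Cfsg.Agent.H943.SL2Rel.u t) (v s) = v s + (((n - s : ℕ) : k) * τ t) • v (s + 1) + r := by
  refine ⟨∑ j ∈ Finset.range (n - s), (((n - s).choose (j + 2) : k) * τ t ^ (j + 2)) • v (s + (j + 2)), ?_, ?_⟩
  · exact Submodule.sum_mem _ fun j _ => Submodule.smul_mem _ _ (mem_Hi (by omega))
  · rw [B.u s hs t]
    have h1 : ∑ j ∈ Finset.range (n - s + 1), (((n - s).choose j : k) * τ t ^ j) • v (s + j) =
        ∑ j ∈ Finset.range (n - s + 2), (((n - s).choose j : k) * τ t ^ j) • v (s + j) := by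
      rw [Finset.sum_range_succ _ (n - s + 1), Nat.choose_succ_self, Nat.cast_zero, zero_mul, zero_smul, add_zero]
    rw [h1, Finset.sum_range_succ', Finset.sum_range_succ']
    simp only [Nat.choose_zero_right, Nat.cast_one, pow_zero, one_mul, one_smul, add_zero, zero_add, Nat.choose_one_right,
      pow_one]
    simp only [show ∀ j : ℕ, j + 1 + 1 = j + 2 from fun _ => rfl]
    abel

theorem Bs.u_one (B : Bs τ ρ n v) {s : ℕ} (hs : s ≤ n) (t : K) : ∃ r ∈ Hi (k := k) v (s + 1),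
    ρ (Cfsg.Agent.H943.SL2Rel.u t) (v s) = v s + r := by
  obtain ⟨r, hr, e⟩ := B.u_two hs t
  exact ⟨(((n - s : ℕ) : k) * τ t) • v (s + 1) + r, Submodule.add_mem _ (Submodule.smul_mem _ _ (mem_Hi le_rfl))
    (Hi_mono (by omega) hr), by rw [e, add_assoc]⟩

end hi

section tri

variable {E₁ E₂ E₃ : Type*} [AddCommGroup E₁] [Module k E₁] [AddCommGroup E₂] [Module k E₂] [AddCommGroup E₃]
  [Module k E₃] {ρ₁ : Representation k (SpecialLinearGroup (Fin 2) K) E₁}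
  {ρ₂ : Representation k (SpecialLinearGroup (Fin 2) K) E₂} {ρ₃ : Representation k (SpecialLinearGroup (Fin 2) K) E₃}
  {n₁ n₂ n₃ : ℕ} {v₁ : ℕ → E₁} {v₂ : ℕ → E₂} {v₃ : ℕ → E₃} (T : E₁ →ₗ[k] E₂ →ₗ[k] E₃ →ₗ[k] k)

theorem tri_hi {a b c : ℕ} (h0 : ∀ s s' s'', a ≤ s → b ≤ s' → c ≤ s'' → T (v₁ s) (v₂ s') (v₃ s'') = 0) {x : E₁} {y : E₂}
    {z : E₃} (hx : x ∈ Hi (k := k) v₁ a) (hy : y ∈ Hi (k := k) v₂ b) (hz : z ∈ Hi (k := k) v₃ c) : T x y z = 0 := by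
  have h1 : ∀ s s', a ≤ s → b ≤ s' → T (v₁ s) (v₂ s') z = 0 := by
    intro s s' hs hs'
    have h2 : Hi (k := k) v₃ c ≤ LinearMap.ker (T (v₁ s) (v₂ s')) := by
      rw [Hi, Submodule.span_le]
      rintro _ ⟨s'', hs'', rfl⟩
      exact h0 s s' s'' hs hs' hs''
    exact h2 hz
  have h3 : ∀ s, a ≤ s → T (v₁ s) y z = 0 := by
    intro s hs
    have h2 : Hi (k := k) v₂ b ≤ LinearMap.ker ((T (v₁ s)).flip z) := by
      rw [Hi, Submodule.span_le]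
      rintro _ ⟨s', hs', rfl⟩
      exact h1 s s' hs hs'
    exact h2 hy
  have h2 : Hi (k := k) v₁ a ≤ LinearMap.ker ((T.flip y).flip z) := by
    rw [Hi, Submodule.span_le]
    rintro _ ⟨s, hs, rfl⟩
    exact h3 s hs
  exact h2 hx

variable (hT : ∀ g x y z, T (ρ₁ g x) (ρ₂ g y) (ρ₃ g z) = T x y z)
include hT

variable {τ}

/-- the torus -/
theorem tri_torus (B₁ : Bs τ ρ₁ n₁ v₁) (B₂ : Bs τ ρ₂ n₂ v₂) (B₃ : Bs τ ρ₃ n₃ v₃) {s s' s'' : ℕ}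
    (h0 : T (v₁ s) (v₂ s') (v₃ s'') ≠ 0) :
    ((Fintype.card K - 1 : ℕ) : ℤ) ∣ 2 * (s + s' + s'' : ℤ) - (n₁ + n₂ + n₃) := by
  have hs : s ≤ n₁ := by
    by_contra hcon
    exact h0 (by rw [B₁.zero s (by omega), map_zero]; rfl)
  have hs' : s' ≤ n₂ := by
    by_contra hcon
    exact h0 (by rw [B₂.zero s' (by omega), map_zero]; rfl)
  have hs'' : s'' ≤ n₃ := by
    by_contra hcon
    exact h0 (by rw [B₃.zero s'' (by omega), map_zero])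
  obtain ⟨g, hg⟩ := IsCyclic.exists_generator (α := Kˣ)
  have h1 := hT (h g) (v₁ s) (v₂ s') (v₃ s'')
  rw [B₁.h s hs, B₂.h s' hs', B₃.h s'' hs''] at h1
  simp only [map_smul, LinearMap.smul_apply, smul_eq_mul] at h1
  have hg0 : τ (g : K) ≠ 0 := (map_ne_zero τ).2 g.ne_zero
  have h2 : τ (g : K) ^ (2 * (s + s' + s'' : ℤ) - (n₁ + n₂ + n₃)) = 1 := by
    have h3 : (τ (g : K) ^ s * (τ (g : K))⁻¹ ^ (n₁ - s)) * ((τ (g : K) ^ s' * (τ (g : K))⁻¹ ^ (n₂ - s')) *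
        (τ (g : K) ^ s'' * (τ (g : K))⁻¹ ^ (n₃ - s''))) = 1 := by
      apply mul_right_cancel₀ h0
      rw [one_mul]
      conv_rhs => rw [← h1]
      ring
    rw [← h3]
    have e : ∀ n s : ℕ, s ≤ n → τ (g : K) ^ s * (τ (g : K))⁻¹ ^ (n - s) = τ (g : K) ^ (2 * (s : ℤ) - n) := by
      intro n s hs
      rw [← zpow_natCast, ← zpow_natCast, _root_.inv_zpow', ← zpow_add₀ hg0]
      congr 1
      omega
    rw [e _ _ hs, e _ _ hs', e _ _ hs'', ← zpow_add₀ hg0, ← zpow_add₀ hg0]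
    congr 1
    ring
  have h3 : g ^ (2 * (s + s' + s'' : ℤ) - (n₁ + n₂ + n₃)) = 1 := by
    apply Units.ext
    apply τ.injective
    rw [Units.val_zpow_eq_zpow_val, map_zpow₀, h2, Units.val_one, map_one]
  have h4 := orderOf_dvd_iff_zpow_eq_one.2 h3
  rwa [orderOf_eq_card_of_forall_mem_zpowers hg, Nat.card_eq_fintype_card, Fintype.card_units] at h4

/-- the symmetry -/
theorem tri_w (B₁ : Bs τ ρ₁ n₁ v₁) (B₂ : Bs τ ρ₂ n₂ v₂) (B₃ : Bs τ ρ₃ n₃ v₃) {s s' s'' : ℕ} (hs : s ≤ n₁) (hs' : s' ≤ n₂)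
    (hs'' : s'' ≤ n₃) (h0 : T (v₁ (n₁ - s)) (v₂ (n₂ - s')) (v₃ (n₃ - s'')) = 0) : T (v₁ s) (v₂ s') (v₃ s'') = 0 := by
  have h1 := hT w (v₁ s) (v₂ s') (v₃ s'')
  rw [B₁.w s hs, B₂.w s' hs', B₃.w s'' hs''] at h1
  simp only [map_smul, LinearMap.smul_apply, h0, smul_zero] at h1
  exact h1.symm

/-- the derivation -/
theorem tri_der (B₁ : Bs τ ρ₁ n₁ v₁) (B₂ : Bs τ ρ₂ n₂ v₂) (B₃ : Bs τ ρ₃ n₃ v₃) {N : ℕ}
    (h0 : ∀ s s' s'', N < s + s' + s'' → T (v₁ s) (v₂ s') (v₃ s'') = 0) {s s' s'' : ℕ} (hs : s ≤ n₁) (hs' : s' ≤ n₂)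
    (hs'' : s'' ≤ n₃) (hN : s + s' + s'' + 1 = N) :
    ((n₁ - s : ℕ) : k) * T (v₁ (s + 1)) (v₂ s') (v₃ s'') + ((n₂ - s' : ℕ) : k) * T (v₁ s) (v₂ (s' + 1)) (v₃ s'') +
      ((n₃ - s'' : ℕ) : k) * T (v₁ s) (v₂ s') (v₃ (s'' + 1)) = 0 := by
  have h1 := hT (u 1) (v₁ s) (v₂ s') (v₃ s'')
  obtain ⟨r₁, hr₁, e₁⟩ := B₁.u_two hs 1
  obtain ⟨r₂, hr₂, e₂⟩ := B₂.u_two hs' 1
  obtain ⟨r₃, hr₃, e₃⟩ := B₃.u_two hs'' 1
  rw [map_one, mul_one] at e₁ e₂ e₃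
  have m₁ := Submodule.add_mem _ (Submodule.smul_mem _ ((n₁ - s : ℕ) : k) (mem_Hi (k := k) (v := v₁) (le_refl (s + 1))))
    (Hi_mono (by omega) hr₁)
  have m₂ := Submodule.add_mem _ (Submodule.smul_mem _ ((n₂ - s' : ℕ) : k) (mem_Hi (k := k) (v := v₂) (le_refl (s' + 1))))
    (Hi_mono (by omega) hr₂)
  have m₃ := Submodule.add_mem _ (Submodule.smul_mem _ ((n₃ - s'' : ℕ) : k) (mem_Hi (k := k) (v := v₃) (le_refl (s'' + 1))))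
    (Hi_mono (by omega) hr₃)
  have z₁ : T r₁ (v₂ s') (v₃ s'') = 0 := tri_hi T (a := s + 2) (b := s') (c := s'') (fun _ _ _ _ _ _ => h0 _ _ _ (by omega))
    hr₁ (mem_Hi le_rfl) (mem_Hi le_rfl)
  have z₂ : T (v₁ s) r₂ (v₃ s'') = 0 := tri_hi T (a := s) (b := s' + 2) (c := s'') (fun _ _ _ _ _ _ => h0 _ _ _ (by omega))
    (mem_Hi le_rfl) hr₂ (mem_Hi le_rfl)
  have z₃ : T (v₁ s) (v₂ s') r₃ = 0 := tri_hi T (a := s) (b := s') (c := s'' + 2) (fun _ _ _ _ _ _ => h0 _ _ _ (by omega))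
    (mem_Hi le_rfl) (mem_Hi le_rfl) hr₃
  obtain ⟨y₁, hy₁⟩ : ∃ y₁, y₁ = ((n₁ - s : ℕ) : k) • v₁ (s + 1) + r₁ := ⟨_, rfl⟩
  obtain ⟨y₂, hy₂⟩ : ∃ y₂, y₂ = ((n₂ - s' : ℕ) : k) • v₂ (s' + 1) + r₂ := ⟨_, rfl⟩
  obtain ⟨y₃, hy₃⟩ : ∃ y₃, y₃ = ((n₃ - s'' : ℕ) : k) • v₃ (s'' + 1) + r₃ := ⟨_, rfl⟩
  rw [← hy₁] at m₁
  rw [← hy₂] at m₂
  rw [← hy₃] at m₃
  have z₁₂ : T y₁ y₂ (v₃ s'') = 0 := tri_hi T (a := s + 1) (b := s' + 1) (c := s'')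
    (fun _ _ _ _ _ _ => h0 _ _ _ (by omega)) m₁ m₂ (mem_Hi le_rfl)
  have z₁₃ : T y₁ (v₂ s') y₃ = 0 := tri_hi T (a := s + 1) (b := s') (c := s'' + 1)
    (fun _ _ _ _ _ _ => h0 _ _ _ (by omega)) m₁ (mem_Hi le_rfl) m₃
  have z₂₃ : T (v₁ s) y₂ y₃ = 0 := tri_hi T (a := s) (b := s' + 1) (c := s'' + 1)
    (fun _ _ _ _ _ _ => h0 _ _ _ (by omega)) (mem_Hi le_rfl) m₂ m₃
  have z₁₂₃ : T y₁ y₂ y₃ = 0 := tri_hi T (a := s + 1) (b := s' + 1) (c := s'' + 1)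
    (fun _ _ _ _ _ _ => h0 _ _ _ (by omega)) m₁ m₂ m₃
  rw [e₁, e₂, e₃, add_assoc, add_assoc, add_assoc, ← hy₁, ← hy₂, ← hy₃] at h1
  simp only [map_add, LinearMap.add_apply, z₁₂, z₁₃, z₂₃, z₁₂₃] at h1
  have e4 : T y₁ (v₂ s') (v₃ s'') = ((n₁ - s : ℕ) : k) * T (v₁ (s + 1)) (v₂ s') (v₃ s'') := by
    rw [hy₁, map_add, LinearMap.add_apply, LinearMap.add_apply, z₁, add_zero, map_smul, LinearMap.smul_apply,
      LinearMap.smul_apply, smul_eq_mul]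
  have e5 : T (v₁ s) y₂ (v₃ s'') = ((n₂ - s' : ℕ) : k) * T (v₁ s) (v₂ (s' + 1)) (v₃ s'') := by
    rw [hy₂, map_add, LinearMap.add_apply, z₂, add_zero, map_smul, LinearMap.smul_apply, smul_eq_mul]
  have e6 : T (v₁ s) (v₂ s') y₃ = ((n₃ - s'' : ℕ) : k) * T (v₁ s) (v₂ s') (v₃ (s'' + 1)) := by
    rw [hy₃, map_add, z₃, add_zero, map_smul, smul_eq_mul]
  rw [← e4, ← e5, ← e6]
  linear_combination h1

/-- the top part vanishes -/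
theorem tri_top (B₁ : Bs τ ρ₁ n₁ v₁) (B₂ : Bs τ ρ₂ n₂ v₂) (B₃ : Bs τ ρ₃ n₃ v₃) (hn : ∀ j, 0 < j → j ≤ n₁ → ((j : ℕ) : k) ≠ 0)
    {N : ℕ} (h0 : ∀ s s' s'', N < s + s' + s'' → T (v₁ s) (v₂ s') (v₃ s'') = 0)
    (hb : ∀ s' s'', s' + s'' = N → T (v₁ 0) (v₂ s') (v₃ s'') = 0) (s : ℕ) :
    ∀ s' s'', s + s' + s'' = N → T (v₁ s) (v₂ s') (v₃ s'') = 0 := by
  induction s with
  | zero =>
    intro s' s'' he
    exact hb s' s'' (by omega)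
  | succ s ih =>
    intro s' s'' he
    rcases Nat.lt_or_ge n₂ s' with h1 | h1
    · rw [B₂.zero s' h1, map_zero]
      rfl
    rcases Nat.lt_or_ge n₃ s'' with h2 | h2
    · rw [B₃.zero s'' h2, map_zero]
    rcases Nat.lt_or_ge s n₁ with h3 | h3
    · have h4 := tri_der T hT B₁ B₂ B₃ h0 h3.le h1 h2 (by omega)
      rw [ih (s' + 1) s'' (by omega), ih s' (s'' + 1) (by omega), mul_zero, mul_zero, add_zero, add_zero] at h4
      exact (mul_eq_zero.1 h4).resolve_left (hn _ (by omega) (by omega))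
    · rw [B₁.zero (s + 1) (by omega), map_zero]
      rfl

/-- the positive part vanishes -/
theorem tri_pos (B₁ : Bs τ ρ₁ n₁ v₁) (B₂ : Bs τ ρ₂ n₂ v₂) (B₃ : Bs τ ρ₃ n₃ v₃) (hn : ∀ j, 0 < j → j ≤ n₁ → ((j : ℕ) : k) ≠ 0)
    (hq : n₂ + n₃ ≤ n₁ + (Fintype.card K - 1))
    (hb : n₂ + n₃ = n₁ + (Fintype.card K - 1) → T (v₁ 0) (v₂ n₂) (v₃ n₃) = 0) :
    ∀ d N, n₁ + n₂ + n₃ + 1 ≤ N + d → n₁ + n₂ + n₃ < 2 * N → ∀ s s' s'', s + s' + s'' = N →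
      T (v₁ s) (v₂ s') (v₃ s'') = 0 := by
  intro d
  induction d with
  | zero =>
    intro N hN _ s s' s'' he
    rcases Nat.lt_or_ge n₁ s with h1 | h1
    · rw [B₁.zero s h1, map_zero]
      rfl
    rcases Nat.lt_or_ge n₂ s' with h2 | h2
    · rw [B₂.zero s' h2, map_zero]
      rfl
    · rw [B₃.zero s'' (by omega), map_zero]
  | succ d ih =>
    intro N hN hpos s s' s'' he
    have h0 : ∀ s s' s'', N < s + s' + s'' → T (v₁ s) (v₂ s') (v₃ s'') = 0 := by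
      intro t t' t'' ht
      exact ih (t + t' + t'') (by omega) (by omega) t t' t'' rfl
    by_cases hc : n₂ + n₃ ≤ N ∧ (n₂ + n₃ = N → n₂ + n₃ = n₁ + (Fintype.card K - 1))
    · refine tri_top T hT B₁ B₂ B₃ hn h0 (fun s' s'' he => ?_) s s' s'' he
      rcases Nat.lt_or_ge n₂ s' with h1 | h1
      · rw [B₂.zero s' h1, map_zero]
        rfl
      rcases Nat.lt_or_ge n₃ s'' with h2 | h2
      · rw [B₃.zero s'' h2, map_zero]
      obtain rfl : s' = n₂ := by omega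
      obtain rfl : s'' = n₃ := by omega
      exact hb (hc.2 he)
    · by_contra hne
      have h2 := tri_torus T hT B₁ B₂ B₃ hne
      have h3 := Int.le_of_dvd (by omega) h2
      have := Fintype.one_lt_card (α := K)
      omega

/-- **the trilinear form is graded** -/
theorem tri_grade' (B₁ : Bs τ ρ₁ n₁ v₁) (B₂ : Bs τ ρ₂ n₂ v₂) (B₃ : Bs τ ρ₃ n₃ v₃)
    (hn : ∀ j, 0 < j → j ≤ n₁ → ((j : ℕ) : k) ≠ 0) (hq : n₂ + n₃ ≤ n₁ + (Fintype.card K - 1))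
    (hb : n₂ + n₃ = n₁ + (Fintype.card K - 1) → T (v₁ 0) (v₂ n₂) (v₃ n₃) = 0) (s s' s'' : ℕ)
    (hN : 2 * (s + s' + s'') ≠ n₁ + n₂ + n₃) : T (v₁ s) (v₂ s') (v₃ s'') = 0 := by
  rcases Nat.lt_or_ge n₁ s with h1 | h1
  · rw [B₁.zero s h1, map_zero]
    rfl
  rcases Nat.lt_or_ge n₂ s' with h2 | h2
  · rw [B₂.zero s' h2, map_zero]
    rfl
  rcases Nat.lt_or_ge n₃ s'' with h3 | h3
  · rw [B₃.zero s'' h3, map_zero]
  rcases Nat.lt_or_ge (n₁ + n₂ + n₃) (2 * (s + s' + s'')) with h4 | h4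
  · exact tri_pos T hT B₁ B₂ B₃ hn hq hb (n₁ + n₂ + n₃ + 1) _ (by omega) h4 s s' s'' rfl
  · refine tri_w T hT B₁ B₂ B₃ h1 h2 h3 ?_
    exact tri_pos T hT B₁ B₂ B₃ hn hq hb (n₁ + n₂ + n₃ + 1) (n₁ - s + (n₂ - s') + (n₃ - s'')) (by omega) (by omega) _ _ _ rfl

theorem tri_grade (B₁ : Bs τ ρ₁ n₁ v₁) (B₂ : Bs τ ρ₂ n₂ v₂) (B₃ : Bs τ ρ₃ n₃ v₃) (hn : ∀ j, 0 < j → j ≤ n₁ → ((j : ℕ) : k) ≠ 0)
    (hq : n₂ + n₃ < n₁ + (Fintype.card K - 1)) (s s' s'' : ℕ) (hN : 2 * (s + s' + s'') ≠ n₁ + n₂ + n₃) :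
    T (v₁ s) (v₂ s') (v₃ s'') = 0 :=
  tri_grade' T hT B₁ B₂ B₃ hn hq.le (fun h => by omega) s s' s'' hN

omit hT

/-- the trivial module -/
theorem bs_triv : Bs τ (1 : Representation k (SpecialLinearGroup (Fin 2) K) k) 0 (fun s => if s = 0 then (1 : k) else 0) := by
  refine ⟨fun s hs => if_neg (by omega), fun s hs t => ?_, fun s hs a => ?_, fun s hs => ?_⟩
  · obtain rfl : s = 0 := by omega
    simp
  · obtain rfl : s = 0 := by omega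
    simp
  · obtain rfl : s = 0 := by omega
    simp

/-- **the bilinear form is graded** -/
theorem bil_grade (B₁ : Bs τ ρ₁ n₁ v₁) (B₂ : Bs τ ρ₂ n₂ v₂) (T : E₁ →ₗ[k] E₂ →ₗ[k] k)
    (hT : ∀ g x y, T (ρ₁ g x) (ρ₂ g y) = T x y) (hn : ∀ j, 0 < j → j ≤ n₁ → ((j : ℕ) : k) ≠ 0)
    (hq : n₂ < n₁ + (Fintype.card K - 1)) (s s' : ℕ) (hN : 2 * (s + s') ≠ n₁ + n₂) : T (v₁ s) (v₂ s') = 0 := by
  have h1 := tri_grade (T.compr₂ (LinearMap.toSpanSingleton k (k →ₗ[k] k) LinearMap.id)) (ρ₁ := ρ₁) (ρ₂ := ρ₂)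
    (ρ₃ := (1 : Representation k (SpecialLinearGroup (Fin 2) K) k)) (fun g x y z => by
      show T (ρ₁ g x) (ρ₂ g y) • z = T x y • z
      rw [hT]) B₁ B₂ bs_triv hn (by omega) s s' 0 (by omega)
  have h2 : T (v₁ s) (v₂ s') • (if (0 : ℕ) = 0 then (1 : k) else 0) = 0 := h1
  rwa [if_pos rfl, smul_eq_mul, mul_one] at h2

/-- the derivation for bilinear forms -/
theorem bil_der (B₁ : Bs τ ρ₁ n₁ v₁) (B₂ : Bs τ ρ₂ n₂ v₂) (T : E₁ →ₗ[k] E₂ →ₗ[k] k)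
    (hT : ∀ g x y, T (ρ₁ g x) (ρ₂ g y) = T x y) {N : ℕ}
    (h0 : ∀ s s', N < s + s' → T (v₁ s) (v₂ s') = 0) {s s' : ℕ} (hs : s ≤ n₁) (hs' : s' ≤ n₂)
    (hN : s + s' + 1 = N) :
    ((n₁ - s : ℕ) : k) * T (v₁ (s + 1)) (v₂ s') + ((n₂ - s' : ℕ) : k) * T (v₁ s) (v₂ (s' + 1)) = 0 := by
  have h1 := tri_der (T.compr₂ (LinearMap.toSpanSingleton k (k →ₗ[k] k) LinearMap.id)) (ρ₁ := ρ₁) (ρ₂ := ρ₂)
    (ρ₃ := (1 : Representation k (SpecialLinearGroup (Fin 2) K) k)) (fun g x y z => by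
      show T (ρ₁ g x) (ρ₂ g y) • z = T x y • z
      rw [hT]) B₁ B₂ bs_triv (N := N) (fun s s' s'' hss => by
        show T (v₁ s) (v₂ s') • (if s'' = 0 then (1 : k) else 0) = 0
        by_cases h : s'' = 0
        · rw [h0 s s' (by omega), zero_smul]
        · rw [if_neg h, smul_zero]) hs hs' (le_refl 0) (by omega)
  have h2 : ((n₁ - s : ℕ) : k) * (T (v₁ (s + 1)) (v₂ s') • (if (0 : ℕ) = 0 then (1 : k) else 0)) +
      ((n₂ - s' : ℕ) : k) * (T (v₁ s) (v₂ (s' + 1)) • (if (0 : ℕ) = 0 then (1 : k) else 0)) +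
      ((0 - 0 : ℕ) : k) * (T (v₁ s) (v₂ s') • (if (0 + 1 : ℕ) = 0 then (1 : k) else 0)) = 0 := h1
  rw [if_pos rfl, smul_eq_mul, smul_eq_mul, mul_one, mul_one, Nat.sub_self, Nat.cast_zero, zero_mul, add_zero] at h2
  exact h2

end tri

end Cfsg.Agent.R2.H9.E6.Gr
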