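import Mathlib
import Cfsg.Agent.H163.E6.Defs
import Cfsg.Agent.H16.E6.Cov
import Cfsg.Agent.S2086

/-!
# S5749, S5750: lifting perfect groups to the simply connected group (helper9)

* `exists_lift_gen` : a perfect group `A` whose stem extensions have kernels of order prime to 3 lifts to `Zgrp F`;
* `exists_lift_psl` : `PSL₂(K)`, `|K| ≥ 4`, `|K| ≠ 4, 9`.
-/

set_option autoImplicit false

namespace Cfsg.Agent.R2.H9.E6

open Cfsg Cfsg.Lie Module
open Cfsg.Agent.ChevalleyStructure.E6Min.Basic Cfsg.Agent.ChevalleyStructure.E6Min.Adjoint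
open Cfsg.Agent.H163.E6

universe u v

/-- the projection of the preimage -/
noncomputable def prA {F : Type u} [Field F] {A : Type v} [Group A] {φ : A →* ↥(chevE6.group F)}
    (hφ : Function.Injective φ) : ↥(φ.range.comap (ad F)) →* A :=
  ((MonoidHom.ofInjective hφ).symm : ↥φ.range →* A).comp ((ad F).subgroupComap φ.range)

theorem phi_prA {F : Type u} [Field F] {A : Type v} [Group A] {φ : A →* ↥(chevE6.group F)}
    (hφ : Function.Injective φ) (g : ↥(φ.range.comap (ad F))) : φ (prA hφ g) = ad F g :=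
  congrArg Subtype.val ((MonoidHom.ofInjective hφ).apply_symm_apply ((ad F).subgroupComap φ.range g))

/-- transport of a finite group to any universe -/
theorem exists_small (P : Type u) [Group P] [Finite P] : ∃ (Γ : Type v) (_ : Group Γ), Finite Γ ∧ Nonempty (Γ ≃* P) := by
  have e : P ≃ ULift.{v} (Fin (Nat.card P)) := (Finite.equivFin P).trans Equiv.ulift.symm
  letI : Group (ULift.{v} (Fin (Nat.card P))) := e.symm.group
  exact ⟨_, inferInstance, inferInstance, ⟨e.symm.mulEquiv⟩⟩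

open scoped commutatorElement in
/-- **lifting** -/
theorem exists_lift_gen {F : Type u} [Field F] [Finite F] {A : Type v} [Group A] {φ : A →* ↥(chevE6.group F)}
    (hφ : Function.Injective φ) (hA : commutator A = ⊤)
    (hS : ∀ (Γ : Type v) [Group Γ] [Finite Γ] (σ : Γ →* A), IsStemExtension σ → ¬ 3 ∣ Nat.card σ.ker) :
    ∃ ψ : A →* ↥(Zgrp F), Lift φ ψ := by
  by_cases hD : ∀ g ∈ ⁅φ.range.comap (ad F), φ.range.comap (ad F)⁆, ad F g = 1 → g = 1
  · exact Cov.lift_of (ad F) φ ad_surjective hA hD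
  exfalso
  push Not at hD
  obtain ⟨z, hzD, hz1, hz⟩ := hD
  obtain ⟨ω, h3, hω⟩ := (Act.ad_eq_one_iff z).mp hz1
  have h1 : ω ≠ 1 := by
    rintro rfl
    exact hz (Subtype.ext (by rw [hω, Cov.scal_one]; rfl))
  have hc : Cover φ ω := ⟨h1, h3, z, hω, hzD⟩
  have hfin : Finite ↥(Zgrp F) := inferInstance
  have hsurj : Function.Surjective (prA hφ) := by
    intro a
    obtain ⟨g, hg⟩ := ad_surjective (φ a)
    refine ⟨⟨g, Subgroup.mem_comap.mpr ⟨a, hg.symm⟩⟩, hφ ?_⟩
    rw [phi_prA]
    exact hg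
  have hone : ∀ g, prA hφ g = 1 ↔ ad F (g : ↥(Zgrp F)) = 1 := by
    intro g
    rw [← phi_prA hφ]
    constructor
    · intro h; rw [h, map_one]
    · intro h; exact hφ (by rw [h, map_one])
  have hstem : IsStemExtension (prA hφ) := by
    refine ⟨hsurj, ?_, ?_⟩
    · intro w hw
      rw [Subgroup.mem_center_iff]
      intro g
      exact Subtype.ext (Cov.ker_comm ((hone w).mp hw) g)
    · intro w hw
      have h4 := Cov.ker_le hc ((hone w).mp hw)
      rw [← Subgroup.map_subtype_commutator] at h4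
      obtain ⟨w', hw', he⟩ := h4
      have : w' = w := Subtype.ext he
      rwa [← this]
  obtain ⟨Γ, _, hΓ, ⟨e⟩⟩ := exists_small.{u, v} ↥(φ.range.comap (ad F))
  have hstem' : IsStemExtension ((prA hφ).comp e.toMonoidHom) := by
    refine ⟨hsurj.comp e.surjective, ?_, ?_⟩
    · intro w hw
      rw [Subgroup.mem_center_iff]
      intro g
      apply e.injective
      rw [map_mul, map_mul]
      exact Subgroup.mem_center_iff.1 (hstem.2.1 (show e w ∈ (prA hφ).ker from hw)) (e g)
    · intro w hw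
      have h5 : e w ∈ commutator ↥(φ.range.comap (ad F)) := hstem.2.2 hw
      have h6 : (commutator Γ).map e.toMonoidHom = commutator ↥(φ.range.comap (ad F)) := by
        have hr : (⊤ : Subgroup Γ).map e.toMonoidHom = ⊤ := by
          rw [← MonoidHom.range_eq_map]
          exact MonoidHom.range_eq_top.2 e.surjective
        rw [commutator_def, commutator_def, Subgroup.map_commutator, hr]
      rw [← h6] at h5
      obtain ⟨w', hw', he⟩ := h5
      rwa [← e.injective he]
  refine hS Γ _ hstem' ?_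
  have hzP : z ∈ φ.range.comap (ad F) := by
    rw [Subgroup.mem_comap, hz1]; exact one_mem _
  have h6 : e.symm (⟨z, hzP⟩ : ↥(φ.range.comap (ad F))) ∈ ((prA hφ).comp e.toMonoidHom).ker := by
    rw [MonoidHom.mem_ker]
    show prA hφ (e (e.symm _)) = 1
    rw [e.apply_symm_apply]
    exact (hone _).2 hz1
  have h7 : orderOf (⟨e.symm ⟨z, hzP⟩, h6⟩ : ↥((prA hφ).comp e.toMonoidHom).ker) = 3 := by
    refine orderOf_eq_prime ?_ ?_
    · apply Subtype.ext
      show (e.symm ⟨z, hzP⟩) ^ 3 = 1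
      rw [← map_pow, show (⟨z, hzP⟩ : ↥(φ.range.comap (ad F))) ^ 3 = 1 from Subtype.ext (Cov.ker_pow hz1), map_one]
    · intro h
      have h8 : e.symm ⟨z, hzP⟩ = 1 := congrArg Subtype.val h
      rw [e.symm.map_eq_one_iff] at h8
      exact hz (congrArg Subtype.val h8)
  have h8 := orderOf_dvd_natCard (⟨e.symm ⟨z, hzP⟩, h6⟩ : ↥((prA hφ).comp e.toMonoidHom).ker)
  rwa [h7] at h8

/-- stem extensions of `PSL₂(K)`, `|K| ≠ 4, 9` -/
theorem stem_psl {K : Type v} [Field K] [Fintype K] (h4 : 4 < Fintype.card K) (h9 : Fintype.card K ≠ 9)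
    (Γ : Type v) [Group Γ] [Finite Γ] (σ : Γ →* Matrix.ProjectiveSpecialLinearGroup (Fin 2) K) (hσ : IsStemExtension σ) :
    ¬ 3 ∣ Nat.card σ.ker := by
  have h := S2086.result (F := K) rfl 2 le_rfl (fun _ => h4.le) (by
    simp only [Set.mem_insert_iff, Prod.mk.injEq, true_and, Set.mem_singleton_iff]
    rintro (h | h | ⟨h, -⟩ | ⟨h, -⟩ | ⟨h, -⟩) <;> omega)
  obtain ⟨π, hπ⟩ := h.2 Γ σ hσ
  intro h3
  have h5 := Subgroup.card_dvd_of_surjective π hπ
  have h6 : Nat.card (Multiplicative (ZMod (Nat.gcd 2 (Fintype.card K - 1)))) = Nat.gcd 2 (Fintype.card K - 1) := by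
    rw [Nat.card_congr Multiplicative.toAdd, Nat.card_zmod]
  rw [h6] at h5
  have h7 : 3 ∣ 2 := (h3.trans h5).trans (Nat.gcd_dvd_left _ _)
  omega

/-- **`PSL₂(K)` lifts to the simply connected group** -/
theorem exists_lift_psl {F : Type u} [Field F] [Finite F] {K : Type v} [Field K] [Fintype K]
    (h4 : 4 < Fintype.card K) (h9 : Fintype.card K ≠ 9)
    (hA : commutator (Matrix.ProjectiveSpecialLinearGroup (Fin 2) K) = ⊤)
    {φ : Matrix.ProjectiveSpecialLinearGroup (Fin 2) K →* ↥(chevE6.group F)} (hφ : Function.Injective φ) :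
    ∃ ψ : Matrix.ProjectiveSpecialLinearGroup (Fin 2) K →* ↥(Zgrp F), Lift φ ψ :=
  exists_lift_gen hφ hA fun Γ _ _ σ hσ => stem_psl h4 h9 Γ σ hσ

end Cfsg.Agent.R2.H9.E6
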