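import Mathlib
import Cfsg.Agent.Lib.GenFitting
import Cfsg.Agent.S0813

/-!
# S5749, S5750: maximal subgroups with a simple generalized Fitting subgroup (helper9)

* `MaxSimp H φ` : the data attached to a maximal subgroup `H` of a simple group `G` with `F*(H) ≅ A` simple:
  `φ : A →* G` injective, its image normal in `H` and contained in all non-trivial subgroups normal in `H`, the centralizer
  of the image in `G` is trivial, `H` acts on `A` faithfully through `ι : H →* MulAut A`.
* `exists_maxSimp`.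
* `card_le_psl` : the order of `H` for `A = PSL₂(p^a)`.
-/

set_option autoImplicit false

namespace Cfsg.Agent.R2.H9.E6

open Cfsg Subgroup

universe u v

/-- the situation of a maximal subgroup with simple generalized Fitting subgroup -/
structure MaxSimp {G : Type u} [Group G] (H : Subgroup G) {A : Type v} [Group A] (φ : A →* G) : Prop where
  coatom : IsCoatom H
  inj : Function.Injective φ
  le : φ.range ≤ H
  norm : ∀ h ∈ H, ∀ a ∈ φ.range, h * a * h⁻¹ ∈ φ.range
  min : ∀ B : Subgroup G, B ≤ H → (∀ h ∈ H, ∀ b ∈ B, h * b * h⁻¹ ∈ B) → B ≠ ⊥ → φ.range ≤ B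
  cent : ∀ z : G, (∀ a, φ a * z = z * φ a) → z = 1
  act : ∃ ι : ↥H →* MulAut A, Function.Injective ι ∧ (∀ (h : ↥H) (a : A), φ (ι h a) = (h : G) * φ a * (h : G)⁻¹) ∧
    ∀ (a : A) (ha : φ a ∈ H), ι ⟨φ a, ha⟩ = MulAut.conj a

theorem simple_noncomm {A : Type v} [Group A] [IsSimpleGroup A] (hA : ∃ a b : A, a * b ≠ b * a) :
    Subgroup.center A = ⊥ := by
  rcases (inferInstance : (Subgroup.center A).Normal).eq_bot_or_eq_top with h | h
  · exact h
  · exfalso
    obtain ⟨a, b, hab⟩ := hA
    exact hab (Subgroup.mem_center_iff.1 (h ▸ Subgroup.mem_top b) a)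

variable {G : Type u} [Group G] [Finite G]

/-- the centralizer in `G` is trivial: general argument -/
theorem cent_of_max [IsSimpleGroup G] {H : Subgroup G} (hH : IsCoatom H) {A : Type v} [Group A]
    {φ : A →* G} (hinj : Function.Injective φ) (hA : ∃ a b : A, a * b ≠ b * a) (hle : φ.range ≤ H)
    (hnorm : ∀ h ∈ H, ∀ a ∈ φ.range, h * a * h⁻¹ ∈ φ.range)
    (hmin : ∀ B : Subgroup G, B ≤ H → (∀ h ∈ H, ∀ b ∈ B, h * b * h⁻¹ ∈ B) → B ≠ ⊥ → φ.range ≤ B)
    {z : G} (hz : ∀ a, φ a * z = z * φ a) : z = 1 := by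
  set C : Subgroup G := Subgroup.centralizer (φ.range : Set G) with hC
  have memC : ∀ x, x ∈ C ↔ ∀ a, φ a * x = x * φ a := by
    intro x
    rw [hC, Subgroup.mem_centralizer_iff]
    constructor
    · intro h a; exact h _ ⟨a, rfl⟩
    · rintro h _ ⟨a, rfl⟩; exact h a
  obtain ⟨a, b, hab⟩ := hA
  have hCn : ∀ h ∈ H, ∀ c ∈ C, h * c * h⁻¹ ∈ C := by
    intro h hh c hc
    rw [memC] at hc ⊢
    intro a
    obtain ⟨a', ha'⟩ := hnorm h⁻¹ (inv_mem hh) (φ a) ⟨a, rfl⟩
    rw [inv_inv] at ha'
    have h1 := hc a'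
    rw [ha'] at h1
    calc φ a * (h * c * h⁻¹) = h * ((h⁻¹ * φ a * h) * c) * h⁻¹ := by group
      _ = h * (c * (h⁻¹ * φ a * h)) * h⁻¹ := by rw [h1]
      _ = h * c * h⁻¹ * φ a := by group
  have hfin : Finite φ.range := inferInstance
  have hCH : C ≤ H := by
    by_contra hcon
    have h1 : H ⊔ C = ⊤ := by
      apply hH.2
      refine lt_of_le_of_ne le_sup_left fun h => hcon ?_
      rw [h]; exact le_sup_right
    have h2 : φ.range.Normal := by
      constructor
      intro x hx g
      have hg : g ∈ H ⊔ C := by rw [h1]; trivial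
      have h3 : ∀ g ∈ H ⊔ C, ∀ x ∈ φ.range, g * x * g⁻¹ ∈ φ.range := by
        intro g hg
        rw [Subgroup.sup_eq_closure] at hg
        induction hg using Subgroup.closure_induction with
        | mem y hy =>
          intro x hx
          rcases hy with hy | hy
          · exact hnorm y hy x hx
          · obtain ⟨a, rfl⟩ := hx
            have := (memC y).1 hy a
            rw [← this, mul_inv_cancel_right]
            exact ⟨a, rfl⟩
        | one => intro x hx; simpa using hx
        | mul y z _ _ hy hz =>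
          intro x hx
          have := hy _ (hz x hx)
          have e : y * (z * x * z⁻¹) * y⁻¹ = y * z * x * (y * z)⁻¹ := by group
          rwa [e] at this
        | inv y hy hy' =>
          intro x hx
          have hinj : Function.Injective fun x : φ.range => (⟨y * x.1 * y⁻¹, hy' x.1 x.2⟩ : φ.range) := by
            intro x x' h
            have h4 := congrArg Subtype.val h
            apply Subtype.ext
            simpa using h4
          obtain ⟨x', hx'⟩ := Finite.surjective_of_injective hinj ⟨x, hx⟩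
          have h5 : y * x'.1 * y⁻¹ = x := congrArg Subtype.val hx'
          have h6 : y⁻¹ * x * y⁻¹⁻¹ = x'.1 := by rw [← h5]; group
          rw [h6]
          exact x'.2
      exact h3 g hg x hx
    rcases h2.eq_bot_or_eq_top with h3 | h3
    · apply hab
      apply hinj
      have h4 : ∀ a, φ a = 1 := fun a => by
        have : φ a ∈ φ.range := ⟨a, rfl⟩
        rwa [h3, Subgroup.mem_bot] at this
      rw [h4, h4]
    · exact hH.1 (top_le_iff.1 (h3 ▸ hle))
  have hbot : C = ⊥ := by
    by_contra hcon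
    have h1 := hmin C hCH hCn hcon
    apply hab
    apply hinj
    rw [map_mul, map_mul]
    exact (memC _).1 (h1 ⟨b, rfl⟩) a
  have h1 : z ∈ C := (memC z).2 hz
  rwa [hbot, Subgroup.mem_bot] at h1

/-- **a maximal subgroup with simple generalized Fitting subgroup** -/
theorem exists_maxSimp [IsSimpleGroup G] {H : Subgroup G} (hH : IsCoatom H) {A : Type v} [Group A] [IsSimpleGroup A]
    (hA : ∃ a b : A, a * b ≠ b * a) (hF : Nonempty (↥(generalizedFittingSubgroup ↥H) ≃* A)) :
    ∃ φ : A →* G, MaxSimp H φ := by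
  obtain ⟨e⟩ := hF
  have hN : (generalizedFittingSubgroup ↥H).Normal := Lib.GenFitting.genFitting_normal
  set N : Subgroup ↥H := generalizedFittingSubgroup ↥H with hNdef
  have hC : centralizer (N : Set ↥H) ≤ N := Lib.GenFitting.centralizer_genFitting_le
  have hZ : Subgroup.center A = ⊥ := simple_noncomm hA
  -- `C_H(N) = 1`
  have hC1 : ∀ h : ↥H, (∀ a ∈ N, h * a = a * h) → h = 1 := by
    intro h hh
    have h1 : h ∈ N := hC (mem_centralizer_iff.2 fun a ha => (hh a ha).symm)
    have h2 : e ⟨h, h1⟩ ∈ Subgroup.center A := by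
      rw [mem_center_iff]
      intro g
      have h3 := hh _ (e.symm g).2
      have h4 : (⟨h, h1⟩ : ↥N) * e.symm g = e.symm g * ⟨h, h1⟩ := Subtype.ext h3
      have h5 := congrArg e h4
      rw [map_mul, map_mul, e.apply_symm_apply] at h5
      exact h5.symm
    rw [hZ, mem_bot, e.map_eq_one_iff] at h2
    exact congrArg Subtype.val h2
  -- the homomorphism to the automorphism group
  let ψ : ↥H →* MulAut A := (MulAut.congr e).toMonoidHom.comp (MulAut.conjNormal (H := N))
  have hψ : ∀ (h : ↥H) (x : A), ((e.symm (ψ h x) : ↥N) : ↥H) = h * (e.symm x : ↥N) * h⁻¹ := by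
    intro h x
    show ((e.symm (e (MulAut.conjNormal h (e.symm x))) : ↥N) : ↥H) = _
    rw [e.symm_apply_apply, MulAut.conjNormal_apply]
  have hψinj : Function.Injective ψ := by
    rw [injective_iff_map_eq_one]
    intro h hh
    refine hC1 h fun a ha => ?_
    have h1 := hψ h (e ⟨a, ha⟩)
    rw [hh, MulAut.one_apply, e.symm_apply_apply] at h1
    have h2 : a = h * a * h⁻¹ := h1
    exact (eq_mul_inv_iff_mul_eq.1 h2).symm
  have hψA : ∀ x : A, ψ ((e.symm x : ↥N) : ↥H) = MulAut.conj x := by
    intro x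
    apply MulEquiv.ext
    intro y
    apply e.symm.injective
    apply Subtype.ext
    rw [hψ, MulAut.conj_apply, map_mul, map_mul, map_inv]
    rfl
  let φ : A →* G := H.subtype.comp (N.subtype.comp e.symm.toMonoidHom)
  have hφ : ∀ x, φ x = (((e.symm x : ↥N) : ↥H) : G) := fun x => rfl
  have hr : ∀ h : ↥H, (h : G) ∈ φ.range ↔ h ∈ N := by
    intro h
    constructor
    · rintro ⟨x, hx⟩
      rw [hφ] at hx
      have : ((e.symm x : ↥N) : ↥H) = h := Subtype.ext hx
      rw [← this]
      exact (e.symm x).2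
    · intro hh
      exact ⟨e ⟨h, hh⟩, by rw [hφ, e.symm_apply_apply]⟩
  have hle : φ.range ≤ H := by
    rintro _ ⟨x, rfl⟩
    exact ((e.symm x : ↥N) : ↥H).2
  have hinj : Function.Injective φ := by
    intro x y hxy
    exact e.symm.injective (Subtype.ext (Subtype.ext hxy))
  have hnorm : ∀ h ∈ H, ∀ a ∈ φ.range, h * a * h⁻¹ ∈ φ.range := by
    intro h hh a ha
    have h1 := hN.conj_mem ⟨a, hle ha⟩ ((hr ⟨a, hle ha⟩).1 ha) ⟨h, hh⟩
    exact (hr _).2 h1
  have hmin : ∀ B : Subgroup G, B ≤ H → (∀ h ∈ H, ∀ b ∈ B, h * b * h⁻¹ ∈ B) → B ≠ ⊥ → φ.range ≤ B := by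
    intro B hB hBn hB1
    have hBN : (B.subgroupOf H).Normal := ⟨fun b hb h => hBn h h.2 b hb⟩
    set C : Subgroup A := (B.subgroupOf H).comap (N.subtype.comp e.symm.toMonoidHom) with hCdef
    have hCN : C.Normal := hBN.comap _
    rcases hCN.eq_bot_or_eq_top with h | h
    · exfalso
      apply hB1
      rw [eq_bot_iff]
      intro b hb
      have h1 := hC1 ⟨b, hB hb⟩ fun a ha => by
        set b' : ↥H := ⟨b, hB hb⟩ with hb'
        have hbB : b' ∈ B.subgroupOf H := hb
        have h2 : b' * a * b'⁻¹ * a⁻¹ ∈ N := N.mul_mem (hN.conj_mem a ha b') (N.inv_mem ha)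
        have h3 : b' * a * b'⁻¹ * a⁻¹ ∈ B.subgroupOf H := by
          have := (B.subgroupOf H).mul_mem hbB (hBN.conj_mem _ ((B.subgroupOf H).inv_mem hbB) a)
          rwa [show b' * (a * b'⁻¹ * a⁻¹) = b' * a * b'⁻¹ * a⁻¹ by group] at this
        have h4 : e ⟨_, h2⟩ ∈ C := by
          rw [hCdef, mem_comap]
          show ((e.symm (e ⟨_, h2⟩) : ↥N) : ↥H) ∈ B.subgroupOf H
          rw [e.symm_apply_apply]
          exact h3
        rw [h, mem_bot, e.map_eq_one_iff] at h4
        have h5 : b' * a * b'⁻¹ * a⁻¹ = 1 := congrArg Subtype.val h4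
        rw [mul_inv_eq_one, mul_inv_eq_iff_eq_mul] at h5
        exact h5
      rw [mem_bot]
      exact congrArg Subtype.val h1
    · rintro _ ⟨x, rfl⟩
      have h1 : x ∈ C := h ▸ mem_top x
      exact h1
  refine ⟨φ, hH, hinj, hle, hnorm, hmin, fun z hz => cent_of_max hH hinj hA hle hnorm hmin hz, ψ, hψinj, ?_, ?_⟩
  · intro h a
    rw [hφ, hψ, Subgroup.coe_mul, Subgroup.coe_mul, Subgroup.coe_inv, hφ]
  · intro a ha
    rw [← hψA]
    congr 1

theorem MaxSimp.card_le {H : Subgroup G} {A : Type v} [Group A] [Finite A] {φ : A →* G} (h : MaxSimp H φ) :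
    Nat.card ↥H ≤ Nat.card (MulAut A) := by
  obtain ⟨ι, hι, -⟩ := h.act
  have : Finite (MulAut A) := Finite.of_injective (fun σ => (σ : A → A)) DFunLike.coe_injective
  exact Nat.card_le_card_of_injective ι hι

end Cfsg.Agent.R2.H9.E6
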