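import Mathlib
import Cfsg.Agent.R2.H9.E6.Setup
import Cfsg.Agent.R2.H9.E6.TwIrr
import Cfsg.Agent.H163.E6.TwSemi

/-!
# S5750: the uniform situation for `²E₆(q)` (helper9)

* `Setup.of_tw` : `Γ = Gs f`, `M` = the elements of `Gs f` mapped into `H`;
* `SemiG q Γ` : the semilinear map `J : V ↔ V'` commuting with `Γ` (`semi_of_tw`).
-/

set_option autoImplicit false
set_option linter.unusedSectionVars false

namespace Cfsg.Agent.R2.H9.E6

open Cfsg Cfsg.Lie Module
open Cfsg.Agent.ChevalleyStructure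
open Cfsg.Agent.ChevalleyStructure.E6Min.Basic Cfsg.Agent.ChevalleyStructure.E6Min.Adjoint
open Cfsg.Agent.H163.E6
open Cfsg.Agent.H163.E6.Tw
open Cfsg.Agent.H944.E6Tw
open Cfsg.Agent.H952.F4 (ev sh cr tf)

universe u v

/-- the semilinear map exchanging `V` and `V'` (only for `²E₆(q)`) -/
def SemiG {F : Type u} [Field F] (q : ℕ) (Γ : Subgroup ↥(Zgrp F)) : Prop :=
  ∃ J : (I27 → F) → (I27 → F), (∀ x y, J (x + y) = J x + J y) ∧ (∀ (c : F) x, J (c • x) = c ^ q • J x) ∧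
    (∀ x, J (J x) = x) ∧ (∀ x, sh (J x) = J (sh x)) ∧ (∀ x y, cr (J x) (J y) = J (cr x y)) ∧
    (∀ x y, tf (J x) (J y) = tf x y ^ q) ∧ (∀ x, cubicT (J x) = cubicT x ^ q) ∧
    ∀ g ∈ Γ, ∀ x, V F g (J x) = J (V' F g x) ∧ V' F g (J x) = J (V F g x)

section

variable {K : Type u} [Field K] [Fintype K] {q : ℕ} {A : Type v} [Group A]

/-- the preimage in `Gs f` of a subgroup of `²E₆(q)` -/
noncomputable def twM (f : K →+* K) (H : Subgroup ↥(Cfsg.Lie.twistedE6 K q)) : Subgroup ↥(Zgrp K) :=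
  Gs f ⊓ (H.map (incl K q)).comap (ad K)

theorem mem_twM {f : K →+* K} {H : Subgroup ↥(Cfsg.Lie.twistedE6 K q)} {g : ↥(Zgrp K)} :
    g ∈ twM f H ↔ g ∈ Gs f ∧ ∃ y ∈ H, incl K q y = ad K g := by
  rw [twM, Subgroup.mem_inf, Subgroup.mem_comap]
  rfl

theorem semi_of_tw {f : K →+* K} (hf : ∀ t, f t = t ^ q) (hqq : ∀ t : K, (t ^ q) ^ q = t) : SemiG q (Gs f) := by
  have hff : ∀ t : K, f (f t) = t := fun t => by rw [hf, hf, hqq]
  exact ⟨J f, J_add f, fun c x => by rw [J_smul, hf], J_J f hff, sh_J f, cr_J f, fun x y => by rw [tf_J, hf],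
    fun x => by rw [cubicT_J, hf], fun g hg x => ⟨V_J f hg x, V'_J f hg x⟩⟩

/-- a lift of a perfect group in `²E₆(q)` belongs to `Gs f` -/
theorem lift_mem_Gs {f : K →+* K} (hf : ∀ t, f t = t ^ q) (hqq : ∀ t : K, (t ^ q) ^ q = t)
    {φ : A →* ↥(Cfsg.Lie.twistedE6 K q)} (hA : commutator A = ⊤) {ψ : A →* ↥(Zgrp K)}
    (hψ : Lift ((incl K q).comp φ) ψ) (a : A) : ψ a ∈ Gs f := by
  have h1 : ⁅ψ.range, ψ.range⁆ = ψ.range := by
    rw [commutator_def] at hA
    rw [MonoidHom.range_eq_map, ← Subgroup.map_commutator, hA]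
  refine le_Gs_of_perfect f h1 ?_ ⟨a, rfl⟩
  rintro _ ⟨b, rfl⟩
  rw [hψ b]
  exact TwE6Basic.twisted_le_fix f hf hqq (φ b).2

/-- **`²E₆(q)`** -/
theorem Setup.of_tw (hq : IsPrimePow q) (hK : Fintype.card K = q ^ 2) {f : K →+* K} (hf : ∀ t, f t = t ^ q)
    (hqq : ∀ t : K, (t ^ q) ^ q = t) {H : Subgroup ↥(Cfsg.Lie.twistedE6 K q)}
    {φ : A →* ↥(Cfsg.Lie.twistedE6 K q)} (hM : MaxSimp H φ) (hA : commutator A = ⊤) {ψ : A →* ↥(Zgrp K)}
    (hψ : Lift ((incl K q).comp φ) ψ) : Setup (Gs f) (twM f H) ψ := by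
  have hff : ∀ t : K, f (f t) = t := fun t => by rw [hf, hf, hqq]
  have hG : ∀ a, ψ a ∈ Gs f := lift_mem_Gs hf hqq hA hψ
  -- elements of `Gs f` are mapped into the twisted group
  have hGl : ∀ g ∈ Gs f, ∃ y, incl K q y = ad K g := by
    intro g hg
    have h2 := Gs_le_Gl hq hK hf hqq hg
    rw [mem_Gl] at h2
    exact ⟨⟨_, h2⟩, Subtype.ext rfl⟩
  have hex : ∀ y : ↥(Cfsg.Lie.twistedE6 K q), ∃ g ∈ Gs f, ad K g = incl K q y := by
    intro y
    obtain ⟨g, hg, hgy⟩ := exists_Gs f hf hqq y.2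
    exact ⟨g, hg, Subtype.ext hgy⟩
  have hker : ∀ z ∈ Gs f, ad K z = 1 → z ∈ twM f H := fun z hz h => mem_twM.2 ⟨hz, 1, one_mem _, by rw [map_one, h]⟩
  have hcent : ∀ y : ↥(chevE6.group K), (y : GL chevE6.Idx K) ∈ twistedE6 K q →
      (∀ a, incl K q (φ a) * y = y * incl K q (φ a)) → y = 1 := by
    intro y hy h
    have h1 : (⟨y, hy⟩ : ↥(Cfsg.Lie.twistedE6 K q)) = 1 := by
      refine hM.cent _ fun a => ?_
      apply incl_injective K q
      rw [map_mul, map_mul]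
      exact h a
    have h2 := congrArg (fun z : ↥(Cfsg.Lie.twistedE6 K q) => (z : GL chevE6.Idx K)) h1
    exact Subtype.ext h2
  refine
    { hle := inf_le_left
      ne := ?_
      max := ?_
      ker := hker
      inj := ?_
      perf := hA
      le := ?_
      act := ?_
      cent := ?_
      no_add := ?_
      irr := ?_ }
  · intro h
    apply hM.coatom.1
    rw [eq_top_iff]
    intro y _
    obtain ⟨g, hg, hgy⟩ := hex y
    rw [← h, mem_twM] at hg
    obtain ⟨-, y', hy', h1⟩ := hg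
    have h2 : y' = y := incl_injective K q (h1.trans hgy)
    rwa [← h2]
  · intro X h1 h2
    have h3 : H ≤ (X.map (ad K)).comap (incl K q) := by
      intro y hy
      obtain ⟨g, hg, hgy⟩ := hex y
      exact ⟨g, h1 (mem_twM.2 ⟨hg, y, hy, hgy.symm⟩), hgy⟩
    rcases eq_or_lt_of_le h3 with h4 | h4
    · left
      refine le_antisymm (fun x hx => ?_) h1
      obtain ⟨y, hy⟩ := hGl x (h2 hx)
      refine mem_twM.2 ⟨h2 hx, y, ?_, hy⟩
      rw [h4]
      exact ⟨x, hx, hy.symm⟩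
    · right
      have h5 : (X.map (ad K)).comap (incl K q) = ⊤ := hM.coatom.2 _ h4
      refine le_antisymm h2 fun g hg => ?_
      obtain ⟨y, hy⟩ := hGl g hg
      have h6 : y ∈ (X.map (ad K)).comap (incl K q) := by rw [h5]; trivial
      obtain ⟨x, hx, hxy⟩ := h6
      have h7 : x⁻¹ * g ∈ X := h1 (hker _ (mul_mem (inv_mem (h2 hx)) hg) (by
        rw [map_mul, map_inv, hxy, hy, inv_mul_cancel]))
      have h8 := mul_mem hx h7
      rwa [mul_inv_cancel_left] at h8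
  · intro a b hab
    apply hM.inj
    apply incl_injective K q
    have h1 := hψ a
    rw [hab, hψ b] at h1
    exact h1.symm
  · rintro _ ⟨a, rfl⟩
    exact mem_twM.2 ⟨hG a, φ a, hM.le ⟨a, rfl⟩, (hψ a).symm⟩
  · obtain ⟨ι, hι, hιφ, hιc⟩ := hM.act
    have hch : ∀ h : ↥(twM f H), ∃ y : ↥H, incl K q y = ad K (h : ↥(Zgrp K)) := by
      intro h
      obtain ⟨-, y, hy, h1⟩ := mem_twM.1 h.2
      exact ⟨⟨y, hy⟩, h1⟩
    choose π hπ using hch
    let πh : ↥(twM f H) →* ↥H := MonoidHom.mk' π (by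
      intro a b
      apply Subtype.ext
      apply incl_injective K q
      rw [hπ, Subgroup.coe_mul, Subgroup.coe_mul, map_mul, map_mul, hπ, hπ])
    refine ⟨ι.comp πh, ?_, ?_, ?_⟩
    · intro h a
      refine conj_lift hA _ _ (fun a => ?_) a
      rw [hψ, hψ]
      show incl K q (φ (ι (π h) a)) = _
      rw [hιφ, map_mul, map_mul, map_inv, hπ]
      rfl
    · intro h
      constructor
      · intro h1
        have h2 : π h = 1 := hι (by rw [map_one]; exact h1)
        rw [← hπ, h2, Subgroup.coe_one, map_one]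
      · intro h1
        have h2 : π h = 1 := by
          apply Subtype.ext
          apply incl_injective K q
          rw [hπ, h1, Subgroup.coe_one, map_one]
        show ι (π h) = 1
        rw [h2, map_one]
    · intro a ha
      have h1 : π ⟨ψ a, ha⟩ = ⟨φ a, hM.le ⟨a, rfl⟩⟩ := by
        apply Subtype.ext
        apply incl_injective K q
        rw [hπ]
        exact hψ a
      show ι (π ⟨ψ a, ha⟩) = _
      rw [h1, hιc]
  · intro z hz h
    obtain ⟨y, hy⟩ := hGl z hz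
    rw [← hy, hM.cent y, map_one]
    intro a
    apply incl_injective K q
    rw [map_mul, map_mul, hy]
    have h1 : ad K (ψ a) = incl K q (φ a) := hψ a
    rw [← h1, ← map_mul, ← map_mul, h]
  · intro a ha ha2 h
    refine kill hq hK hf hqq (A := ((incl K q).comp φ).range) ?_ ?_ ha ha2 ?_
    · rintro _ ⟨b, rfl⟩
      exact (φ b).2
    · intro y hy hc
      exact hcent y hy fun b => hc _ ⟨b, rfl⟩
    · intro t
      obtain ⟨g, h1, h2⟩ := h t
      refine ⟨g, h1, ?_⟩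
      rintro _ ⟨b, rfl⟩
      rw [← hψ b, ← map_mul, ← map_mul, h2]
  · rintro ρ (rfl | rfl) W hW
    · exact TwIrr.irred hq hK hf hqq hW
    · exact TwIrr.irred' hq hK hf hqq hW

end

end Cfsg.Agent.R2.H9.E6
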